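import Cfsg.Agent.H5.Dich1
import Cfsg.Agent.H3.ZCor
import Cfsg.Agent.S0992
import Cfsg.Prelude.Def_Classical
import Cfsg.Prelude.Def_Spor_Mathieu
import Cfsg.Prelude.Def_Spor_J1

/-! Chains of subgroups. -/

set_option autoImplicit false

namespace LN

open Subgroup ArithmeticFunction
open scoped ArithmeticFunction.Omega

/-- length at most seven -/
def L7 (G : Type*) [Group G] : Prop := ∀ c : Fin 9 → Subgroup G, ¬ StrictAnti c

/-- the conclusion -/
def Concl (G : Type*) [Group G] : Prop :=
  (∃ (F : Type) (_ : Field F) (_ : Fintype F),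
      Nonempty (G ≃* Matrix.ProjectiveSpecialLinearGroup (Fin 2) F)) ∨
    (∃ (F : Type) (_ : Field F) (_ : Fintype F), Fintype.card F = 9 ∧
      Nonempty (G ≃* Cfsg.PSU 3 F 3)) ∨
    Nonempty (G ≃* ↥(alternatingGroup (Fin 7))) ∨ Cfsg.Spor.IsoM11 G ∨ Cfsg.Spor.IsoJ1 G ∨
    Nat.card G = 126000

variable {G X : Type*} [Group G] [Group X] {H K : Subgroup G} {m n : ℕ}

/-- `H` has a chain of `n` proper inclusions below it -/
inductive Ht : Subgroup G → ℕ → Prop
  | zero (H : Subgroup G) : Ht H 0
  | succ {H K : Subgroup G} {n : ℕ} : Ht K n → K < H → Ht H (n + 1)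

theorem Ht.mono (h : Ht K n) (e : K ≤ H) : Ht H n := by
  cases h with
  | zero => exact .zero _
  | succ h l => exact .succ h (l.trans_le e)

theorem Ht.pred (h : Ht H (n + 1)) : Ht H n := by
  cases h with
  | succ h l => exact h.mono l.le

theorem Ht.le (h : Ht H n) (e : m ≤ n) : Ht H m := by
  induction e with
  | refl => exact h
  | step _ ih => exact ih h.pred

theorem Ht.chain (h : Ht H n) : ∃ c : Fin (n + 1) → Subgroup G, StrictAnti c ∧ c 0 = H := by
  induction h with
  | zero H => exact ⟨fun _ => H, fun a b l => absurd l (by omega), rfl⟩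
  | succ _ l ih =>
    obtain ⟨c, hc, e⟩ := ih
    refine ⟨Fin.cons _ c, Fin.strictAnti_iff_succ_lt.2 fun i => ?_, rfl⟩
    refine Fin.cases ?_ (fun j => ?_) i
    · simpa [e] using l
    · simpa using hc (Fin.castSucc_lt_succ (i := j))

theorem L7.not8 (h : L7 G) : ¬ Ht H 8 := fun e => by
  obtain ⟨c, hc, -⟩ := e.chain
  exact h c hc

theorem L7.not7 (h : L7 G) (hH : H ≠ ⊤) : ¬ Ht H 7 := fun e =>
  h.not8 (e.succ (lt_top_iff_ne_top.2 hH))

theorem L7.le6 (h : L7 G) (hH : H ≠ ⊤) (e : Ht H n) : n ≤ 6 := by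
  by_contra c
  exact h.not7 hH (e.le (by omega))

/-- a proper subgroup of height six is maximal -/
theorem L7.max (h : L7 G) (e : Ht H 6) (l : H ≤ K) (hK : K ≠ ⊤) : K = H := by
  by_contra c
  exact h.not7 hK (e.succ (lt_of_le_of_ne l (Ne.symm c)))

theorem Ht.map (h : Ht H n) {f : G →* X} (hf : Function.Injective f) : Ht (H.map f) n := by
  induction h with
  | zero => exact .zero _
  | succ _ l ih => exact ih.succ ((map_lt_map_iff_of_injective hf).2 l)

theorem Ht.comap {f : X →* G} (hk : Ht f.ker m) (h : Ht H n) (e : H ≤ f.range) :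
    Ht (H.comap f) (m + n) := by
  induction h with
  | zero => exact hk.mono (ker_le_comap _ _)
  | @succ H K n _ l ih =>
    refine (ih (l.le.trans e)).succ (lt_of_le_of_ne (comap_mono l.le) fun c => l.ne ?_)
    rw [← map_comap_eq_self e, ← c, map_comap_eq_self (l.le.trans e)]

theorem Ht.of_top (h : Ht (⊤ : Subgroup H) n) : Ht H n := by
  simpa [← MonoidHom.range_eq_map] using h.map H.subtype_injective

theorem Ht.sub (h : Ht K n) (e : K ≤ H) : Ht (K.subgroupOf H) n := by
  simpa using (Ht.zero H.subtype.ker).comap h (by simpa using e)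

theorem Ht.top (h : Ht H n) : Ht (⊤ : Subgroup H) n := (h.sub le_rfl).mono le_top

theorem Ht.equiv (h : Ht (⊤ : Subgroup G) n) (e : G ≃* X) : Ht (⊤ : Subgroup X) n :=
  (h.map (f := e.toMonoidHom) e.injective).mono le_top

theorem Ht.surj {f : X →* G} (hs : Function.Surjective f) (hk : Ht f.ker m)
    (h : Ht (⊤ : Subgroup G) n) : Ht (⊤ : Subgroup X) (m + n) :=
  (hk.comap h (MonoidHom.range_eq_top.2 hs).ge).mono le_top

/-- additivity along a normal subgroup -/
theorem Ht.quot [K.Normal] (hk : Ht K m) (h : Ht (⊤ : Subgroup (G ⧸ K)) n) :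
    Ht (⊤ : Subgroup G) (m + n) :=
  Ht.surj (QuotientGroup.mk'_surjective K) (by rwa [QuotientGroup.ker_mk']) h

universe u in
theorem ht_solv_top (k : ℕ) : ∀ (X : Type u) [Group X] [Finite X] [Group.IsSolvable X],
    Nat.card X = k → Ht (⊤ : Subgroup X) (Ω k) := by
  induction k using Nat.strong_induction_on with
  | _ k ih =>
    intro X _ _ _ e
    cases subsingleton_or_nontrivial X
    · rw [← e, Nat.card_unique, cardFactors_one]; exact .zero _
    obtain ⟨M, hM, l⟩ := (eq_top_or_exists_le_coatom (commutator X)).resolve_left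
      (Group.IsSolvable.commutator_lt_top_of_nontrivial X).ne
    have : M.Normal := Normal.of_commutator_le (h := l)
    have : Nontrivial (X ⧸ M) := QuotientGroup.nontrivial_iff.2 hM.1
    have : IsSimpleGroup (X ⧸ M) := ⟨fun N _ => by
      rcases (QuotientGroup.le_comap_mk' M N).eq_or_lt with c | c
      · left
        rw [← map_comap_eq_self_of_surjective (QuotientGroup.mk'_surjective M) N, ← c]
        exact QuotientGroup.map_mk'_self M
      · right
        rw [← map_comap_eq_self_of_surjective (QuotientGroup.mk'_surjective M) N, hM.2 _ c]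
        exact map_top_of_surjective _ (QuotientGroup.mk'_surjective M)⟩
    have : IsMulCommutative (X ⧸ M) := IsSimpleGroup.comm_iff_isSolvable.2 inferInstance |> fun h =>
      ⟨⟨h⟩⟩
    have hp : (Nat.card (X ⧸ M)).Prime := by
      let _ : CommGroup (X ⧸ M) := IsMulCommutative.instCommGroup
      exact IsSimpleGroup.prime_card
    have c := card_eq_card_quotient_mul_card_subgroup M
    have l' : Nat.card M < k := by
      rw [← e, c]
      exact lt_mul_of_one_lt_left Nat.card_pos hp.one_lt
    rw [← e, c, cardFactors_mul hp.ne_zero Nat.card_pos.ne', cardFactors_apply_prime hp, add_comm]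
    exact (ih _ l' M rfl).of_top.succ (lt_top_iff_ne_top.2 hM.1)

theorem ht_solv [Finite G] (h : Group.IsSolvable H) : Ht H (Ω (Nat.card H)) :=
  (ht_solv_top _ H rfl).of_top

theorem omega_le {a b : ℕ} (h : a ∣ b) (hb : b ≠ 0) : Ω a ≤ Ω b := by
  obtain ⟨c, rfl⟩ := h
  rw [cardFactors_mul (left_ne_zero_of_mul hb) (right_ne_zero_of_mul hb)]
  omega

theorem ht_dvd [Finite G] (h : Group.IsSolvable H) (e : m ∣ Nat.card H) : Ht H (Ω m) :=
  (ht_solv h).le (omega_le e Nat.card_pos.ne')

theorem L7.omega [Finite G] (h : L7 G) (hH : H ≠ ⊤) (s : Group.IsSolvable H)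
    (e : m ∣ Nat.card H) : Ω m ≤ 6 := h.le6 hH (ht_dvd s e)

theorem L7.omega' [Finite G] (h : L7 G) (l : H < K) (hK : K ≠ ⊤) (s : Group.IsSolvable H)
    (e : m ∣ Nat.card H) : Ω m ≤ 5 := by
  have := h.le6 hK ((ht_dvd s e).succ l)
  omega

theorem ht_pow [Finite G] {p : ℕ} (hp : p.Prime) (h : IsPGroup p H) (e : p ^ n ∣ Nat.card H) :
    Ht H n := by
  have := Fact.mk hp
  have := h.isNilpotent
  have := ht_dvd (H := H) inferInstance e
  rwa [cardFactors_apply_prime_pow hp] at this

/-- `K ⊴ H` with solvable quotient -/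
theorem Ht.rel [Finite G] (hk : Ht K m) (l : K ≤ H) (hn : (K.subgroupOf H).Normal)
    (s : Group.IsSolvable (H ⧸ K.subgroupOf H)) : Ht H (m + Ω (K.relIndex H)) :=
  ((hk.sub l).quot (ht_solv_top _ _ rfl)).of_top

universe u in
theorem ht_four_top (k : ℕ) : ∀ (X : Type u) [Group X] [Finite X], ¬ Group.IsSolvable X →
    Nat.card X = k → Ht (⊤ : Subgroup X) 4 := by
  induction k using Nat.strong_induction_on with
  | _ k ih =>
    intro X _ _ ns e
    cases subsingleton_or_nontrivial X
    · exact absurd (Group.isSolvable_of_comm fun a b => Subsingleton.elim _ _) ns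
    by_cases hs : IsSimpleGroup X
    · have hG : ¬ IsMulCommutative X := fun c => ns (Group.isSolvable_of_comm fun a b => c.1.1 a b)
      have h2 : 2 ∣ Nat.card X := by_contra fun c => ns (by
        have := H5.Dich.solv_of_odd (X := (⊤ : Subgroup X)) (by rwa [card_top])
        exact Group.isSolvable_of_surjective (f := (⊤ : Subgroup X).subtype)
          fun x => ⟨⟨x, trivial⟩, rfl⟩)
      obtain ⟨T⟩ : Nonempty (Sylow 2 X) := inferInstance
      have hT : (T : Subgroup X) ≠ ⊤ := fun c => ns (by
        have := (T.2.of_equiv ((MulEquiv.subgroupCongr c).trans topEquiv)).isNilpotent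
        infer_instance)
      by_cases h8 : 8 ∣ Nat.card X
      · refine (ht_pow Nat.prime_two T.2 (n := 3) ?_).succ (lt_top_iff_ne_top.2 hT)
        rw [T.card_eq_multiplicity]
        exact pow_dvd_pow _ ((Nat.prime_two.pow_dvd_iff_le_factorization Nat.card_pos.ne').1 h8)
      obtain ⟨k4, k3⟩ := Cfsg.Agent.S0992.result hG (even_iff_two_dvd.2 h2) h8 T
      have t2 : Ht (T : Subgroup X) 2 := ht_pow Nat.prime_two T.2 (by rw [k4.card_four]; decide)
      have l1 : (T : Subgroup X) ≤ centralizer ((T : Subgroup X) : Set X) := fun a ha b hb =>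
        congrArg Subtype.val (k4.isMulCommutative.1.1 (⟨b, hb⟩ : (T : Subgroup X)) ⟨a, ha⟩)
      have l2 : centralizer ((T : Subgroup X) : Set X) < normalizer ((T : Subgroup X) : Set X) :=
        lt_of_le_of_ne (centralizer_le_normalizer _) fun c => by
          rw [c, relIndex_self] at k3; omega
      refine ((t2.mono l1).succ l2).succ (lt_top_iff_ne_top.2 fun c => ?_)
      rcases (normalizer_eq_top_iff.1 c).eq_bot_or_eq_top with c | c
      · have := k4.card_four
        rw [c, card_bot] at this; omega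
      · exact hT c
    · obtain ⟨N, hN, n1, n2⟩ : ∃ N : Subgroup X, N.Normal ∧ N ≠ ⊥ ∧ N ≠ ⊤ := by
        by_contra c
        push Not at c
        exact hs ⟨fun N h => or_iff_not_imp_left.2 (c N h)⟩
      have c := card_eq_card_quotient_mul_card_subgroup N
      by_cases s : Group.IsSolvable N
      · have l : Nat.card (X ⧸ N) < k := by
          rw [← e, c]
          exact lt_mul_of_one_lt_right Nat.card_pos ((one_lt_card_iff_ne_bot N).2 n1)
        exact (Ht.zero N).quot (ih _ l _ (fun s' => ns (Group.isSolvable_of_ker_le_range N.subtype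
          (QuotientGroup.mk' N) (by simp))) rfl)
      · have l : Nat.card N < k := by
          rw [← e, c]
          exact lt_mul_of_one_lt_left Nat.card_pos (one_lt_index_of_ne_top n2)
        exact (ih _ l _ s rfl).of_top.mono le_top

theorem ht_four [Finite G] (h : ¬ Group.IsSolvable H) : Ht H 4 := (ht_four_top _ H h rfl).of_top

end LN
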