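import Mathlib.Tactic
import Mathlib.NumberTheory.Padics.PadicVal.Basic

/-! Semidihedral Sylow subgroup of order sixteen: arithmetic. -/

set_option autoImplicit false

namespace LN.E

theorem two_adic {n K Q : ℤ} (hn : n % 2 = 1) (hQ : Q % 8 = 3)
    (h : n * (K - Q) ^ 2 = Q * (Q - 1) * (Q + 1) ^ 2 * K * (K - 1)) : (K - Q) % 16 = 8 := by
  obtain ⟨a, rfl⟩ : ∃ a, n = 2 * a + 1 := ⟨n / 2, by omega⟩
  obtain ⟨b, rfl⟩ : ∃ b, Q = 8 * b + 3 := ⟨Q / 8, by omega⟩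
  obtain ⟨x, rfl⟩ : ∃ x, K = x + (8 * b + 3) := ⟨K - (8 * b + 3), by ring⟩
  rw [add_sub_cancel_right] at h ⊢
  have e1 : (2 * a + 1) * x ^ 2 =
      32 * ((8 * b + 3) * (4 * b + 1) * (2 * b + 1) ^ 2 * ((x + 8 * b + 3) * (x + 8 * b + 2))) := by
    linear_combination h
  have c : IsCoprime (2 : ℤ) (2 * a + 1) := ⟨-a, 1, by ring⟩
  have p2 : ∀ y : ℤ, (2 : ℤ) ∣ (2 * a + 1) * y ^ 2 → 2 ∣ y := fun y hy =>
    Int.prime_two.dvd_of_dvd_pow (c.dvd_of_dvd_mul_left hy)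
  obtain ⟨y, rfl⟩ := p2 x (e1 ▸ Dvd.dvd.mul_right (by norm_num) _)
  obtain ⟨z, rfl⟩ := p2 y ⟨4 * ((8 * b + 3) * (4 * b + 1) * (2 * b + 1) ^ 2 *
    ((2 * y + 8 * b + 3) * (2 * y + 8 * b + 2))), by nlinarith⟩
  obtain ⟨w, rfl⟩ := p2 z ⟨(8 * b + 3) * (4 * b + 1) * (2 * b + 1) ^ 2 *
    ((4 * z + 8 * b + 3) * (4 * z + 8 * b + 2)), by nlinarith⟩
  have e2 : (2 * a + 1) * w ^ 2 = (8 * b + 3) * (4 * b + 1) * (2 * b + 1) ^ 2 *
      ((8 * w + 8 * b + 3) * (4 * w + 4 * b + 1)) := by nlinarith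
  have : Odd ((2 * a + 1) * w ^ 2) := by
    rw [e2]
    exact ((Odd.mul ⟨4 * b + 1, by ring⟩ ⟨2 * b, by ring⟩).mul (Odd.pow ⟨b, rfl⟩)).mul
      (Odd.mul ⟨4 * w + 4 * b + 1, by ring⟩ ⟨2 * w + 2 * b, by ring⟩)
  have := (Int.odd_pow' two_ne_zero).1 (Int.odd_mul.1 this).2
  obtain ⟨t, rfl⟩ := this
  omega

theorem dvd_sq {q : ℕ} (hq : q.Prime) {Q j : ℤ} (e : Q.natAbs = q) (h : j ∣ Q ^ 2) :
    j = 1 ∨ j = -1 ∨ j = Q ∨ j = -Q ∨ j = Q ^ 2 ∨ j = -Q ^ 2 := by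
  have h1 : j.natAbs ∣ q ^ 2 := by rw [← e, ← Int.natAbs_pow]; exact Int.natAbs_dvd_natAbs.2 h
  obtain ⟨k, hk, e1⟩ := (Nat.dvd_prime_pow hq).1 h1
  have e2 : j.natAbs = (Q ^ k).natAbs := by rw [Int.natAbs_pow, e, e1]
  have := Int.natAbs_eq_natAbs_iff.1 e2
  interval_cases k
  · simp only [pow_zero] at this; tauto
  · simp only [pow_one] at this; tauto
  · tauto

theorem arith {q : ℕ} (hq : q.Prime) {n K F Q m : ℤ} (e : Q.natAbs = q) (hn : n % 2 = 1)
    (hQ : Q % 8 = 3) (h5 : 5 ≤ q) (em : Q + 1 = 4 * m ∨ Q + 1 = -(4 * m))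
    (hm : m = 1 ∨ Prime m ∧ ¬ m ∣ n)
    (h : n * (K - Q) ^ 2 = Q * (Q - 1) * (Q + 1) ^ 2 * K * (K - 1))
    (h3 : (K - Q ^ 2) * (F + Q ^ 2) = -Q ^ 2 * (Q ^ 2 - 1)) :
    Q ∣ n ∧ (Q = -5 → n = 285 ∨ n = 525) ∨ Q = -5 ∧ n = 357 := by
  have h16 := two_adic hn hQ h
  have m2 : m % 2 = 1 := by omega
  have d1 : m ∣ K - Q := by
    rcases hm with rfl | ⟨pm, nm⟩
    · exact one_dvd _
    refine pm.dvd_of_dvd_pow ((pm.dvd_or_dvd (b := (K - Q) ^ 2) ?_).resolve_left nm)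
    rw [h]
    have : m ∣ Q + 1 := by
      rcases em with e | e <;> rw [e]
      exacts [dvd_mul_left _ _, (dvd_mul_left _ _).neg_right]
    exact (((this.pow two_ne_zero).mul_left _).mul_right _).mul_right _
  obtain ⟨v, hv⟩ := d1
  have v8 : v % 16 = 8 := by
    have c8 : IsCoprime (8 : ℤ) m := by
      have : IsCoprime (2 : ℤ) m := ⟨-(m / 2), 1, by omega⟩
      simpa using this.pow_left (m := 3)
    obtain ⟨t, rfl⟩ := c8.dvd_of_dvd_mul_left (z := v) (by rw [← hv]; omega)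
    rcases Int.emod_two_eq_zero_or_one t with e | e
    · obtain ⟨s, rfl⟩ : ∃ s, t = 2 * s := ⟨t / 2, by omega⟩
      have : K - Q = 16 * (m * s) := by rw [hv]; ring
      omega
    · omega
  obtain ⟨u, hu, u2⟩ : ∃ u, K = Q + 2 * (Q + 1) * u ∧ u % 2 = 1 := by
    obtain ⟨t, rfl⟩ : ∃ t, v = 8 * t := ⟨v / 8, by omega⟩
    rcases em with e | e
    · exact ⟨t, by rw [e]; linear_combination hv, by omega⟩
    · exact ⟨-t, by rw [e]; linear_combination hv, by omega⟩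
  obtain ⟨d, hd⟩ : ∃ d, Q = 2 * d + 1 := ⟨Q / 2, by omega⟩
  have cd : IsCoprime d (Q + 1) := by
    have : IsCoprime d (d + 1) := ⟨-1, 1, by ring⟩
    have c2 : IsCoprime d (2 : ℤ) := ⟨1, -(d / 2), by omega⟩
    rw [show Q + 1 = 2 * (d + 1) by omega]
    exact c2.mul_right this
  have cQ : IsCoprime Q (Q + 1) := ⟨-1, 1, by ring⟩
  have cj : IsCoprime ((Q + 1) * u - Q * d) (Q + 1) := by
    have := ((cQ.mul_left cd).neg_left).add_mul_left_left u
    rwa [show -(Q * d) + (Q + 1) * u = (Q + 1) * u - Q * d by ring] at this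
  have dj : (Q + 1) * u - Q * d ∣ Q ^ 2 * d := by
    refine cj.dvd_of_dvd_mul_right ⟨-(F + Q ^ 2), ?_⟩
    have : 2 * (Q ^ 2 * d * (Q + 1)) = 2 * (((Q + 1) * u - Q * d) * -(F + Q ^ 2)) := by
      rw [hu] at h3
      linear_combination h3 + (Q * (F + Q ^ 2) - Q ^ 2 * (Q + 1)) * hd
    linarith
  by_cases Q5 : Q = -5
  · subst Q5
    obtain rfl : d = -3 := by omega
    have b : (-5 + 1) * u - -5 * -3 ∣ 75 := by simpa using dj
    have b1 := Int.le_of_dvd (by norm_num) b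
    have b2 := Int.le_of_dvd (by norm_num) b.neg_left
    have : u = -5 ∨ u = -3 ∨ u = 15 := by
      have l1 : -23 ≤ u := by omega
      have l2 : u ≤ 15 := by omega
      interval_cases u <;> simp_all
    rcases this with rfl | rfl | rfl <;> subst hu <;> norm_num at h
    · exact Or.inr ⟨rfl, by omega⟩
    · exact Or.inl ⟨⟨-57, by omega⟩, fun _ => by omega⟩
    · exact Or.inl ⟨⟨-105, by omega⟩, fun _ => by omega⟩
  left
  refine ⟨?_, fun e => absurd e Q5⟩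
  have pQ : Prime Q := Int.prime_iff_natAbs_prime.2 (e ▸ hq)
  obtain ⟨j1, j2, e1, e2, e3⟩ := exists_dvd_and_dvd_of_dvd_mul dj
  have big : 11 ≤ Q ∨ Q ≤ -13 := by omega
  have d0 : d ≠ 0 := by omega
  have b1 := Int.natAbs_le_of_dvd_ne_zero e2 d0
  have key : ∀ s : ℤ, s = 1 ∨ s = -1 → Q + 1 ∣ s * j2 - d → s * j2 = d := by
    rintro s hs ⟨k, hk⟩
    have b2 : (s * j2).natAbs ≤ d.natAbs := by rcases hs with rfl | rfl <;> simpa using b1
    have e4 : s * j2 ∣ d := by rcases hs with rfl | rfl <;> simpa using e2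
    generalize s * j2 = x at *
    have k1 : k = 0 ∨ k = -1 := by
      by_contra c
      rcases big with b | b
      · rcases (by omega : 1 ≤ k ∨ k ≤ -1) with l | l <;> [have := mul_le_mul_of_nonneg_left l (show 0 ≤ Q + 1 by omega); have := mul_le_mul_of_nonneg_left l (show 0 ≤ Q + 1 by omega)] <;> omega
      · rcases (by omega : 1 ≤ k ∨ k ≤ -2) with l | l <;> [have := mul_le_mul_of_nonneg_left l (show 0 ≤ -(Q + 1) by omega); have := mul_le_mul_of_nonneg_left l (show 0 ≤ -(Q + 1) by omega)] <;>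
          rw [neg_mul, neg_mul] at this <;> omega
    rcases k1 with rfl | rfl
    · omega
    · have x2 : x = -d - 2 := by omega
      have : x ∣ 2 := by
        have := (dvd_refl x).add e4
        rw [show x + d = -2 by omega] at this
        exact this.of_neg_right
      have := Int.natAbs_le_of_dvd_ne_zero this two_ne_zero
      omega
  have base : Q + 1 ∣ j1 * j2 - d := ⟨u - d, by rw [← e3]; ring⟩
  have fin : ∀ j : ℤ, K = Q ^ 2 + (Q - 1) * j → j = 1 ∨ j = -Q ∨ j = Q ^ 2 → Q ∣ n := by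
    rintro j eK (rfl | rfl | rfl)
    · refine (pQ.dvd_or_dvd (b := (K - Q) ^ 2) ?_).resolve_right fun c => ?_
      · rw [h]; exact ⟨_, by rw [mul_assoc, mul_assoc, mul_assoc]⟩
      · have := pQ.dvd_of_dvd_pow c
        rw [show K - Q = Q * Q - 1 by rw [eK]; ring] at this
        exact pQ.not_dvd_one ((dvd_sub_right (dvd_mul_right Q Q)).1 this)
    · rw [show K - Q = 0 by rw [eK]; ring] at h16; omega
    · have e5 : n * (Q * Q - 1) ^ 2 = Q * (Q * (Q - 1) * (Q + 1) ^ 2 * (Q ^ 3 - 1)) := by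
        apply mul_left_cancel₀ (pow_ne_zero 2 pQ.ne_zero)
        rw [eK] at h
        linear_combination h
      refine (pQ.dvd_or_dvd ⟨_, e5⟩).resolve_right fun c => ?_
      exact pQ.not_dvd_one ((dvd_sub_right (dvd_mul_right Q Q)).1 (pQ.dvd_of_dvd_pow c))
  have eK : K = Q ^ 2 + 2 * (j1 * j2) := by rw [← e3, hu]; linear_combination (-Q) * hd
  have no : ¬ Q + 1 ∣ 2 * d := fun c => by
    have : Q + 1 ∣ 2 := by
      have := (dvd_refl (Q + 1)).sub c
      rwa [show Q + 1 - 2 * d = 2 by omega] at this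
    have := Int.natAbs_le_of_dvd_ne_zero this two_ne_zero
    omega
  rcases dvd_sq hq e e1 with rfl | rfl | rfl | rfl | rfl | rfl
  · have := key 1 (Or.inl rfl) base
    exact fin 1 (by rw [eK, this]; omega) (Or.inl rfl)
  · have := key (-1) (Or.inr rfl) base
    exact fin 1 (by rw [eK, this]; omega) (Or.inl rfl)
  · have := key (-1) (Or.inr rfl) (by
      have := base.sub (dvd_mul_right (j1 + 1) j2)
      rwa [show j1 * j2 - d - (j1 + 1) * j2 = -1 * j2 - d by ring] at this)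
    exact fin (-j1) (by rw [eK]; linear_combination (-2 * j1) * this + j1 * hd) (Or.inr (Or.inl rfl))
  · have := key 1 (Or.inl rfl) (by
      have := base.add (dvd_mul_right (Q + 1) j2)
      rwa [show -Q * j2 - d + (Q + 1) * j2 = 1 * j2 - d by ring] at this)
    exact fin (-Q) (by rw [eK]; linear_combination (-2 * Q) * this + Q * hd) (Or.inr (Or.inl rfl))
  · have := key 1 (Or.inl rfl) (by
      have := base.sub (dvd_mul_right (Q + 1) ((Q - 1) * j2))
      rwa [show Q ^ 2 * j2 - d - (Q + 1) * ((Q - 1) * j2) = 1 * j2 - d by ring] at this)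
    exact fin (Q ^ 2) (by rw [eK]; linear_combination (2 * Q ^ 2) * this - Q ^ 2 * hd)
      (Or.inr (Or.inr rfl))
  · have := key (-1) (Or.inr rfl) (by
      have := base.add (dvd_mul_right (Q + 1) ((Q - 1) * j2))
      rwa [show -Q ^ 2 * j2 - d + (Q + 1) * ((Q - 1) * j2) = -1 * j2 - d by ring] at this)
    exact fin (Q ^ 2) (by rw [eK]; linear_combination (2 * Q ^ 2) * this - Q ^ 2 * hd)
      (Or.inr (Or.inr rfl))

end LN.E
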