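import Mathlib

/-! Groups of Janko-Ree type: the numerical data given by the character theory. -/

set_option autoImplicit false

namespace LN

/-- `dg` degrees, `tv` values at the involution, `fs` Frobenius-Schur indicators, `b1 b2 b3`
decomposition columns, `c1 c2` the norm three columns, `τ` a Galois conjugation, `κ` complex
conjugation -/
structure CD {I Λ : Type*} [Fintype I] (o : I) (dg tv fs b1 b2 b3 : I → ℤ) (c1 c2 : Λ → I → ℤ)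
    (τ κ : I → I) (Q D n : ℤ) : Prop where
  hQ : Q = 2 * D - 1
  h8 : Q % 8 = 5
  h11 : 11 ≤ |Q|
  hp : Q.natAbs.Prime ∨ Q = -27
  n0 : 0 < n
  ree : ¬ (Q = -27 ∧ n = 729 * 703)
  dpos : ∀ χ, 0 < dg χ
  o1 : dg o = 1 ∧ tv o = 1 ∧ fs o = 1 ∧ b1 o = 1 ∧ b2 o = 1 ∧ b3 o = 1
  m8 : ∀ χ, dg χ % 8 = tv χ % 8
  le : ∀ χ, |tv χ| ≤ dg χ
  g1 : ∑ χ, b1 χ * b1 χ = 4 ∧ ∑ χ, b2 χ * b2 χ = 4 ∧ ∑ χ, b3 χ * b3 χ = 4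
  g2 : ∑ χ, b1 χ * b2 χ = 2 ∧ ∑ χ, b1 χ * b3 χ = 2 ∧ ∑ χ, b2 χ * b3 χ = 2
  bd : ∑ χ, b1 χ * dg χ = 0 ∧ ∑ χ, b2 χ * dg χ = 0 ∧ ∑ χ, b3 χ * dg χ = 0
  val : ∀ χ, b1 χ ≠ 0 ∨ b2 χ ≠ 0 ∨ b3 χ ≠ 0 →
    tv χ = -Q * b1 χ + D * (b2 χ + b3 χ) ∧ ∀ l, c1 l χ - c2 l χ = b1 χ
  pA : (∑ χ, (b1 χ : ℚ) * ((tv χ : ℚ) ^ 2 / dg χ)) * n = Q * (Q - 1) * (Q + 1) ^ 2
  pB : (∑ χ, (b2 χ : ℚ) * ((tv χ : ℚ) ^ 2 / dg χ)) * n * D = Q ^ 2 * (Q + 1) ^ 2 * (D + 1)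
  bf : ∑ χ, b1 χ * fs χ = 0
  fo : ∀ χ, κ χ = χ → dg χ % 2 = 1 → fs χ = 1
  fr : ∀ χ, κ χ = χ ↔ fs χ ≠ 0
  tb : ∀ χ, b1 (τ χ) = b1 χ ∧ b2 (τ χ) = b3 χ ∧ b3 (τ χ) = b2 χ ∧ dg (τ χ) = dg χ ∧
    fs (τ χ) = fs χ
  kp : 0 < Q → ∀ χ, b1 (κ χ) = b1 χ ∧ b2 (κ χ) = b2 χ ∧ b3 (κ χ) = b3 χ
  kn : Q < 0 → κ = τ
  ne : Nonempty Λ
  cn : ∀ l, ∑ χ, c1 l χ * c1 l χ = 3 ∧ ∑ χ, c2 l χ * c2 l χ = 3 ∧ ∑ χ, c1 l χ * c2 l χ = 0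
  co : ∀ l, c1 l o = 1 ∧ c2 l o = 0
  cd : ∀ l, ∑ χ, c1 l χ * dg χ = 0 ∧ ∑ χ, c2 l χ * dg χ = 0
  ct : ∀ l, ∑ χ, c1 l χ * tv χ = 0 ∧ ∑ χ, c2 l χ * tv χ = 0
  p1 : ∀ l, (∑ χ, (c1 l χ : ℚ) * ((tv χ : ℚ) ^ 2 / dg χ)) * n = Q * (Q - 1) * (Q + 1) ^ 2
  p2 : ∀ l, ∑ χ, (c2 l χ : ℚ) * ((tv χ : ℚ) ^ 2 / dg χ) = 0
  cong : ∀ χ k, (∀ l, c1 l χ + c2 l χ = k) → D ∣ dg χ - k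

end LN
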