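import Mathlib

/-! Groups of Janko-Ree type: integer arithmetic. -/

set_option autoImplicit false
set_option linter.unusedVariables false

namespace LN

theorem monic_dvd {P s a b : ℤ} (hs : s ≠ 0) (h : P ^ 2 + a * P * s + b * s ^ 2 = 0) : s ∣ P := by
  obtain ⟨p, r, c, e1, e2⟩ := Int.exists_gcd_one (m := P) (n := s) (Int.gcd_pos_of_ne_zero_right _ hs)
  generalize (Int.gcd P s : ℤ) = g at e1 e2
  subst e1 e2
  have g0 : g ≠ 0 := right_ne_zero_of_mul hs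
  have h1 : p ^ 2 = r * (-(a * p + b * r)) := mul_left_cancel₀ (pow_ne_zero 2 g0) (by
    linear_combination h)
  have h2 := (Int.isCoprime_iff_gcd_eq_one.2 c).symm
  exact mul_dvd_mul_right (h2.dvd_of_dvd_mul_left (by rw [← sq]; exact ⟨_, h1⟩)) g

theorem ar8 {Q D n x u u' : ℤ} (hQ : Q = 2 * D - 1) (h8 : Q % 8 = 5) (h11 : 11 ≤ |Q|)
    (hp : Q.natAbs.Prime ∨ Q = -27) (n0 : 0 < n) (hx : x % 8 = 1) (hs : u + u' = 1 + x)
    (dx : D ∣ 1 + x) (du : D ∣ u) (u0 : u ≠ 0) (u1 : u' ≠ 0)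
    (A : n * (1 + x) ^ 2 = -Q * (Q + 1) ^ 2 * x * (1 + (1 - Q) * x))
    (B : u * u' * (D * Q + (D + Q) * (1 + x)) = D ^ 3 * x * (1 + (1 - Q) * x)) :
    Q = -27 ∧ n = 729 * 703 := by
  have q11 : 11 ≤ Q ∨ Q ≤ -11 := by rcases abs_cases Q with h | h <;> omega
  have D0 : D ≠ 0 := by omega
  have h1 : 1 + x ∣ Q * (Q + 1) := monic_dvd (a := -((Q + 1) * (2 * Q - 1)))
    (b := -(n + Q * (Q + 1) ^ 2 * (1 - Q))) (by omega) (by linear_combination -A)
  obtain ⟨s, es⟩ := dx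
  obtain ⟨a, rfl⟩ := du
  obtain ⟨D1, hD⟩ : ∃ k, D = 4 * k + 3 := ⟨D / 4, by omega⟩
  obtain ⟨t, rfl, ht⟩ : ∃ t, s = 2 * t ∧ t % 4 = 3 := by
    have e1 : 1 + x = 4 * (D1 * s) + 3 * s := by rw [es, hD]; ring
    obtain ⟨t, rfl⟩ : ∃ t, s = 2 * t := ⟨s / 2, by omega⟩
    have e2 : D1 * (2 * t) = 2 * (D1 * t) := by ring
    exact ⟨t, rfl, by omega⟩
  have h2 : t ∣ Q := (mul_dvd_mul_iff_left (a := 2 * D) (by omega)).1 (by
    rwa [show 2 * D * t = 1 + x by rw [es]; ring, show 2 * D * Q = Q * (Q + 1) by rw [hQ]; ring])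
  obtain rfl : x = D * (2 * t) - 1 := by omega
  obtain rfl : u' = D * (2 * t - a) := by linear_combination hs
  have B' : a * (2 * t - a) * (Q + (D + Q) * (2 * t)) =
      (D * (2 * t) - 1) * (Q + (1 - Q) * (D * (2 * t))) :=
    mul_left_cancel₀ (pow_ne_zero 3 D0) (by linear_combination B)
  have c1 : t ≠ -1 := by
    rintro rfl
    have : 2 * Q + 1 ∣ 15 := ⟨(2 * Q + 1) ^ 2 + 3 * (2 * Q + 1) - 5 - 8 * (a * (2 * -1 - a)), by
      subst hQ; linear_combination (-8) * B'⟩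
    have := Int.le_of_dvd (by norm_num) ((abs_dvd _ _).2 this)
    rcases abs_cases (2 * Q + 1) with h | h <;> omega
  rcases hp with hp | rfl
  · exfalso
    have : t = -Q := by
      rcases (Nat.dvd_prime hp).1 (Int.natAbs_dvd_natAbs.2 h2) with h | h <;> omega
    subst this
    have e : 3 * (a + Q) ^ 2 = -Q * (Q - 1) ^ 2 := mul_left_cancel₀ (a := Q ^ 2) (pow_ne_zero 2 (by omega)) (by
      subst hQ; linear_combination B')
    have pq := Int.prime_iff_natAbs_prime.2 hp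
    obtain ⟨c, hc⟩ := pq.dvd_of_dvd_pow (n := 2) ((pq.dvd_or_dvd (a := 3) (b := (a + Q) ^ 2)
      ⟨-(Q - 1) ^ 2, by linear_combination e⟩).resolve_left fun h => by
        have := Int.le_of_dvd (by norm_num) ((abs_dvd _ _).2 h); omega)
    have : Q ∣ 1 := ⟨2 - Q - 3 * c ^ 2, mul_left_cancel₀ pq.ne_zero (by
      rw [hc] at e; linear_combination e)⟩
    have := Int.le_of_dvd (by norm_num) ((abs_dvd _ _).2 this)
    omega
  · obtain rfl : D = -13 := by omega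
    have h3 := Int.le_of_dvd (by norm_num) ((abs_dvd t 27).2 (Int.dvd_neg.1 h2))
    obtain ⟨c, hc⟩ := h2
    generalize a * (2 * t - a) = w at B'
    have h4 := abs_le.1 h3
    obtain ⟨h5, h6⟩ := h4
    interval_cases t <;> omega

theorem ineq7 {d e φ : ℤ} (hd : 5 ≤ d) (he : 6 ≤ e) (h : e ≤ φ)
    (b : φ + e ≤ 2 * (2 * d + 1) * e * d) :
    (φ + e) ^ 2 * ((3 * d + 1) * (φ + e)) < 8 * d ^ 3 * e * (φ * (2 * φ - 1)) := by
  have d0 : 0 < d := by omega
  have e0 : 0 < e := by omega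
  have φ0 : 0 < φ := by omega
  have p1 : 0 < d ^ 3 * e * φ ^ 2 := by positivity
  rcases le_total φ (16 * e) with c | c
  · have h1 : (φ + e) ^ 2 * ((3 * d + 1) * (φ + e)) ≤ (2 * φ) ^ 2 * ((3 * d + 1) * (17 * e)) := by
      gcongr <;> omega
    have h2 : 25 * 5 * (3 * d + 1) ≤ 16 * d ^ 3 := by nlinarith [mul_nonneg (sub_nonneg.2 hd) (sq_nonneg d)]
    have h3 := mul_le_mul_of_nonneg_left h2 (show 0 ≤ e * φ ^ 2 by positivity)
    have h4 := mul_le_mul_of_nonneg_left (show 11 * φ ≤ 6 * (2 * φ - 1) by omega)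
      (show 0 ≤ d ^ 3 * e * φ by positivity)
    nlinarith
  · have h1 : (16 * (φ + e)) ^ 2 * ((3 * d + 1) * (φ + e)) ≤
        (17 * φ) ^ 2 * ((3 * d + 1) * (2 * (2 * d + 1) * e * d)) :=
      mul_le_mul (pow_le_pow_left₀ (by omega) (by omega) 2) (mul_le_mul_of_nonneg_left b (by omega))
        (by positivity) (by positivity)
    have h2 : 25 * ((3 * d + 1) * (2 * d + 1)) ≤ 176 * d ^ 2 := by nlinarith
    have h3 := mul_le_mul_of_nonneg_left h2 (show 0 ≤ d * e * φ ^ 2 by positivity)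
    have h4 := mul_le_mul_of_nonneg_left (show 191 * φ ≤ 96 * (2 * φ - 1) by omega)
      (show 0 ≤ d ^ 3 * e * φ by positivity)
    nlinarith

theorem sg7 {D E f : ℤ} (hE : E = 1 - D) (h : (7 ≤ D ∧ f ≤ E ∧ -(f + E) ≤ -(2 * (2 * D - 1) * E * D)) ∨
    (D ≤ -5 ∧ E ≤ f ∧ f + E ≤ 2 * (2 * D - 1) * E * D)) :
    (3 * D - 1) * (f + E) + 2 * (2 * D - 1) * D < 0 ∧ 0 < (f + E) ^ 2 * ((3 * D - 1) * (f + E) +
      2 * (2 * D - 1) * D) - 8 * (D ^ 3 * (E * f * (1 + 2 * f))) := by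
  rcases h with ⟨h1, h2, h3⟩ | ⟨h1, h2, h3⟩
  · have k0 : 0 ≤ -E * D := mul_nonneg (by omega) (by omega)
    have := ineq7 (d := D) (e := -E) (φ := -f) (by omega) (by omega) (by omega) (by linarith)
    have k1 : 0 ≤ (f + E) ^ 2 * (2 * (2 * D - 1) * D - 2 * (f + E)) :=
      mul_nonneg (sq_nonneg _) (by nlinarith)
    exact ⟨by subst hE; nlinarith, by linarith⟩
  · have := ineq7 (d := -D) (e := E) (φ := f) (by omega) (by omega) h2 (by linarith)
    have k1 : 0 ≤ (f + E) ^ 2 * (2 * (2 * D - 1) * D) := mul_nonneg (sq_nonneg _) (by nlinarith)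
    have k2 : 0 ≤ (-D) ^ 3 * E * f := by
      have : 0 < E := by omega
      have : 0 < f := by omega
      have : 0 < -D := by omega
      positivity
    exact ⟨by subst hE; nlinarith, by linarith⟩

theorem ar7 {Q D E n f g : ℤ} (hQ : Q = 2 * D - 1) (hE : E = 1 - D) (h11 : 11 ≤ |Q|)
    (h8 : Q % 8 = 5) (sg : Q * f < 0) (fE : |E| ≤ |f|) (g0 : g ≠ 0) (x0 : 1 + f + g ≠ 0)
    (A : n * (f + E) ^ 2 = 2 * Q * (Q - 1) * D ^ 2 * f * (1 + 2 * f))
    (B : ((1 : ℚ) - D ^ 2 / (1 + f + g) + 4 * D ^ 2 / g + E ^ 2 / f) * n * D =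
      Q ^ 2 * (Q + 1) ^ 2 * (D + 1)) : False := by
  have f0 : f ≠ 0 := by rintro rfl; simp at sg
  have q11 : 11 ≤ Q ∨ Q ≤ -11 := by rcases abs_cases Q with h | h <;> omega
  have D0 : D ≠ 0 := by omega
  have Q0 : Q ≠ 0 := by omega
  have m0 : f + E ≠ 0 := fun e => by
    rw [e] at A
    exact absurd A.symm (by
      simp only [ne_eq, OfNat.ofNat_ne_zero, not_false_eq_true, zero_pow, mul_zero]
      exact mul_ne_zero (mul_ne_zero (mul_ne_zero (mul_ne_zero (by omega) (by omega))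
        (pow_ne_zero 2 D0)) f0) (by omega))
  have h1 : f + E ∣ 2 * Q * E * D := monic_dvd (a := -(2 * D * (1 - 4 * E)))
    (b := -(8 * Q * E * D ^ 2 + n)) m0 (by subst hQ hE; linear_combination -A)
  have h2 := Int.le_of_dvd (abs_pos.2 (mul_ne_zero (mul_ne_zero (mul_ne_zero two_ne_zero Q0)
    (show E ≠ 0 by omega)) D0)) ((abs_dvd_abs _ _).2 h1)
  have B1 : ((f + E ^ 2) * g * (1 + f + g) - D ^ 2 * f * g + 4 * D ^ 2 * f * (1 + f + g)) * n * D =
      Q ^ 2 * (Q + 1) ^ 2 * (D + 1) * (f * g * (1 + f + g)) := by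
    have a1 : (f : ℚ) ≠ 0 := by exact_mod_cast f0
    have a2 : (g : ℚ) ≠ 0 := by exact_mod_cast g0
    have a3 : (1 + f + g : ℚ) ≠ 0 := by exact_mod_cast x0
    have : (((f + E ^ 2) * g * (1 + f + g) - D ^ 2 * f * g + 4 * D ^ 2 * f * (1 + f + g)) * n * D : ℚ)
        = Q ^ 2 * (Q + 1) ^ 2 * (D + 1) * (f * g * (1 + f + g)) := by
      rw [← B]; field_simp; ring
    exact_mod_cast this
  have B2 : -(E * D * (1 + 2 * f)) * ((f + E ^ 2) * g * (1 + f + g) - D ^ 2 * f * g +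
      4 * D ^ 2 * f * (1 + f + g)) = Q * (D + 1) * (f + E) ^ 2 * (g * (1 + f + g)) :=
    mul_left_cancel₀ (a := 4 * Q * D ^ 2 * f) (mul_ne_zero (mul_ne_zero (mul_ne_zero four_ne_zero Q0)
      (pow_ne_zero 2 D0)) f0) (by
      subst hQ hE
      linear_combination (f + (1 - D)) ^ 2 * B1 - ((f + (1 - D) ^ 2) * g * (1 + f + g) -
        D ^ 2 * f * g + 4 * D ^ 2 * f * (1 + f + g)) * D * A)
  obtain ⟨N, hN⟩ : ∃ N, N = Q * (D + 1) * (f + E) ^ 2 + E * D * (1 + 2 * f) * (f + E ^ 2) := ⟨_, rfl⟩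
  obtain ⟨M, hM⟩ : ∃ M, M = D ^ 3 * (E * f * (1 + 2 * f)) := ⟨_, rfl⟩
  obtain ⟨W, hW⟩ : ∃ W, W = (f + E) ^ 2 * ((3 * D - 1) * (f + E) + 2 * Q * D) := ⟨_, rfl⟩
  have e1 : N * g ^ 2 + ((1 + f) * N + 3 * M) * g + 4 * M * (1 + f) = 0 := by
    rw [hN, hM]; linear_combination -B2
  have e2 : (1 + f) * N - M = W := by rw [hN, hM, hW, hQ, hE]; ring
  have e3 : (2 * N * g + ((1 + f) * N + 3 * M)) ^ 2 = W * (W - 8 * M) := by
    rw [← e2]; linear_combination 4 * N * e1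
  suffices W < 0 ∧ 0 < W - 8 * M by
    exact absurd (mul_neg_of_neg_of_pos this.1 this.2) (not_lt.2 (e3 ▸ sq_nonneg _))
  have m2 : 0 < (f + E) ^ 2 := by positivity
  have := sg7 (f := f) hE (q11.imp (fun q => by
    have f1 : f < 0 := by nlinarith only [sg, q]
    have : 0 < 2 * Q * (-E) * D := mul_pos (mul_pos (by omega) (by omega)) (by omega)
    rw [abs_of_neg f1, abs_of_neg (show E < 0 by omega)] at fE
    rw [abs_of_neg (show f + E < 0 by omega), abs_of_neg (by linarith), hQ] at h2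
    exact ⟨by omega, by omega, h2⟩) fun q => by
    have f1 : 0 < f := by nlinarith only [sg, q]
    have : 0 < 2 * (-Q) * E * (-D) := mul_pos (mul_pos (by omega) (by omega)) (by omega)
    rw [abs_of_pos f1, abs_of_pos (show 0 < E by omega)] at fE
    rw [abs_of_pos (show 0 < f + E by omega), abs_of_pos (by linarith), hQ] at h2
    exact ⟨by omega, fE, h2⟩)
  rw [hW, hM, hQ]
  exact ⟨mul_neg_of_pos_of_neg m2 this.1, this.2⟩

end LN
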