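import Cfsg.Agent.LN.JC0
import Cfsg.Agent.LN.JE

/-! Groups of Janko-Ree type: the combinatorics of the decomposition columns. -/

set_option autoImplicit false

namespace LN
namespace JC
variable {I Λ : Type*} [Fintype I]

theorem sumS {M : Type*} [AddCommMonoid M] {g : I → M} {l : List I} (nd : l.Nodup)
    (h : ∀ χ, χ ∉ l → g χ = 0) : ∑ χ, g χ = (l.map g).sum := by
  classical
  rw [← List.sum_toFinset g nd]
  exact (Finset.sum_subset (Finset.subset_univ _) fun x _ hx => h x (by simpa using hx)).symm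
theorem more {e : I → ℤ} {l : List I} (nd : l.Nodup) (h : (l.map e).sum ≠ ∑ χ, e χ) :
    ∃ χ, χ ∉ l ∧ e χ ≠ 0 := by
  by_contra c
  push Not at c
  exact h (sumS nd c).symm
theorem lsum_le {e : I → ℤ} (p : ∀ χ, 0 ≤ e χ) {l : List I} (nd : l.Nodup) :
    (l.map e).sum ≤ ∑ χ, e χ := by
  classical
  rw [← List.sum_toFinset e nd]
  exact Finset.sum_le_univ_sum_of_nonneg p
theorem done {e : I → ℤ} (p : ∀ χ, 0 ≤ e χ) {l : List I} (nd : l.Nodup)
    (h : (l.map e).sum = ∑ χ, e χ) (χ : I) (n : χ ∉ l) : e χ = 0 := by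
  have := lsum_le p (List.nodup_cons.2 ⟨n, nd⟩)
  have := p χ
  simp only [List.map_cons, List.sum_cons] at *
  omega
theorem sq1 {a : ℤ} (h : a * a < 4) (n : a ≠ 0) : a * a = 1 := by
  have : -2 < a := by nlinarith
  have : a < 2 := by nlinarith
  interval_cases a <;> simp_all
theorem one3 {c : I → ℤ} (h : ∑ χ, c χ * c χ = 3) {χ : I} (n : c χ ≠ 0) : c χ * c χ = 1 :=
  sq1 (by have := lsum_le (fun χ => mul_self_nonneg (c χ)) (List.nodup_singleton χ); simp at this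
          omega) n
theorem one4 {b : I → ℤ} {o : I} (h : ∑ χ, b χ * b χ = 4) (ho : b o = 1) {χ : I} (n : b χ ≠ 0) :
    b χ * b χ = 1 := by
  by_cases e : χ = o
  · rw [e, ho]; rfl
  refine sq1 ?_ n
  have := lsum_le (fun χ => mul_self_nonneg (b χ)) (l := [χ, o]) (by simpa)
  simp [ho] at this
  omega
theorem same {a b d : I → ℤ} {o : I} (ha : ∑ χ, a χ * a χ = 4) (hb : ∑ χ, b χ * b χ = 4)
    (ab : ∑ χ, a χ * b χ = 2) (oa : a o = 1) (ob : b o = 1) (da : ∑ χ, a χ * d χ = 0)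
    (db : ∑ χ, b χ * d χ = 0) (p : ∀ χ, 0 < d χ) :
    (∀ χ, a χ ≠ 0 → b χ ≠ 0 → b χ = a χ) ∧
      ∃ y, y ≠ o ∧ a y ≠ 0 ∧ b y ≠ 0 ∧ ∀ χ, a χ ≠ 0 → b χ ≠ 0 → χ = o ∨ χ = y := by
  have s : ∀ χ, a χ ≠ 0 → b χ ≠ 0 → b χ = a χ := fun χ n m => by
    by_contra c
    have e : b χ = -a χ := (mul_self_eq_mul_self_iff.1
      ((one4 hb ob m).trans (one4 ha oa n).symm)).resolve_left c
    have h4 : ∑ χ, (a χ - b χ) * (a χ - b χ) = 4 := by
      have : ∀ χ, (a χ - b χ) * (a χ - b χ) = a χ * a χ + b χ * b χ - 2 * (a χ * b χ) :=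
        fun χ => by ring
      simp only [this, Finset.sum_sub_distrib, Finset.sum_add_distrib, ← Finset.mul_sum, ha, hb, ab]
      rfl
    have z := done (fun χ => mul_self_nonneg (a χ - b χ)) (List.nodup_singleton χ) (by
      have := one4 ha oa n
      simp only [List.map_cons, List.map_nil, List.sum_cons, List.sum_nil, h4, e]; nlinarith)
    have := sumS (g := fun χ => (a χ - b χ) * d χ) (List.nodup_singleton χ) fun x hx => by
      rw [mul_self_eq_zero.1 (z x hx), zero_mul]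
    simp only [sub_mul, Finset.sum_sub_distrib, da, db, e, List.map_cons, List.map_nil,
      List.sum_cons, List.sum_nil] at this
    exact mul_ne_zero n (p χ).ne' (by linarith)
  have q : ∀ χ, 0 ≤ a χ * b χ := fun χ => by
    by_cases n : a χ = 0
    · simp [n]
    by_cases m : b χ = 0
    · simp [m]
    rw [s χ n m]; exact mul_self_nonneg _
  obtain ⟨y, yo, hy⟩ := more (e := fun χ => a χ * b χ) (List.nodup_singleton o)
    (by simp [ab, oa, ob])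
  have n := left_ne_zero_of_mul hy
  have m := right_ne_zero_of_mul hy
  refine ⟨s, y, by simpa using yo, n, m, fun χ n' m' => ?_⟩
  by_contra c
  exact mul_ne_zero n' m' (done q (List.nodup_cons.2 ⟨yo, List.nodup_singleton o⟩)
    (by simp [ab, oa, ob, s y n m, one4 ha oa n]) χ (by simpa [or_comm] using c))
/-- one more element of the support -/
theorem last {b : I → ℤ} {n : ℤ} (h : ∑ χ, b χ * b χ = n) (u : ∀ χ, b χ ≠ 0 → b χ * b χ = 1)
    {l : List I} (nd : l.Nodup) (hl : (l.map fun χ => b χ * b χ).sum + 1 = n) :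
    ∃ y, y ∉ l ∧ b y ≠ 0 ∧ ∀ χ, χ ∉ y :: l → b χ = 0 := by
  obtain ⟨y, yl, hy⟩ := more (e := fun χ => b χ * b χ) nd (by omega)
  have m := left_ne_zero_of_mul hy
  exact ⟨y, yl, m, fun χ n => mul_self_eq_zero.1 (done (fun χ => mul_self_nonneg (b χ))
    (List.nodup_cons.2 ⟨yl, nd⟩) (by simp only [List.map_cons, List.sum_cons, u y m]; omega) χ n)⟩
theorem last2 {b : I → ℤ} {n : ℤ} (h : ∑ χ, b χ * b χ = n) (u : ∀ χ, b χ ≠ 0 → b χ * b χ = 1)
    {l : List I} (nd : l.Nodup) (hl : (l.map fun χ => b χ * b χ).sum + 2 = n) :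
    ∃ y y', (y' :: y :: l).Nodup ∧ b y ≠ 0 ∧ b y' ≠ 0 ∧ ∀ χ, χ ∉ y' :: y :: l → b χ = 0 := by
  obtain ⟨y, yl, hy⟩ := more (e := fun χ => b χ * b χ) nd (by omega)
  have m := left_ne_zero_of_mul hy
  have nd' := List.nodup_cons.2 ⟨yl, nd⟩
  obtain ⟨y', a, c, d⟩ := last h u nd' (by simp only [List.map_cons, List.sum_cons, u y m]; omega)
  exact ⟨y, y', List.nodup_cons.2 ⟨a, nd'⟩, m, c, d⟩
theorem sgq {β : ℤ} (h : β * β = 1) (T d : ℤ) :
    (β : ℚ) * ((T : ℚ) ^ 2 / d) = ((β * T : ℤ) : ℚ) ^ 2 / (β * d : ℤ) := by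
  rcases mul_self_eq_one_iff.1 h with rfl | rfl <;> simp [div_neg]
theorem ident {a b c A B C : ℤ} (a0 : a ≠ 0) (b0 : b ≠ 0) (c0 : c ≠ 0) (h1 : a + (b + c) = 0)
    (h2 : A + (B + C) = 0) (h3 : (A : ℚ) ^ 2 / a + ((B : ℚ) ^ 2 / b + (C : ℚ) ^ 2 / c) = 0) :
    a * B = b * A := by
  obtain rfl : c = -(a + b) := by omega
  obtain rfl : C = -(A + B) := by omega
  have : ((a * B - b * A : ℤ) : ℚ) ^ 2 = 0 := by
    have a0' : (a : ℚ) ≠ 0 := by exact_mod_cast a0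
    have b0' : (b : ℚ) ≠ 0 := by exact_mod_cast b0
    have c0' : (a + b : ℚ) ≠ 0 := by exact_mod_cast neg_ne_zero.1 c0
    push_cast at h3 ⊢
    field_simp at h3
    linear_combination h3
  exact sub_eq_zero.1 (by exact_mod_cast pow_eq_zero_iff two_ne_zero |>.1 this)

def A8 : Prop := ∀ {Q D n x u u' : ℤ}, Q = 2 * D - 1 → Q % 8 = 5 → 11 ≤ |Q| →
  (Q.natAbs.Prime ∨ Q = -27) → 0 < n → x % 8 = 1 → u + u' = 1 + x → D ∣ 1 + x → D ∣ u → u ≠ 0 →
  u' ≠ 0 → n * (1 + x) ^ 2 = -Q * (Q + 1) ^ 2 * x * (1 + (1 - Q) * x) →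
  u * u' * (D * Q + (D + Q) * (1 + x)) = D ^ 3 * x * (1 + (1 - Q) * x) → Q = -27 ∧ n = 729 * 703
def A7 : Prop := ∀ {Q D E n f g : ℤ}, Q = 2 * D - 1 → E = 1 - D → 11 ≤ |Q| → Q % 8 = 5 →
  Q * f < 0 → |E| ≤ |f| → g ≠ 0 → 1 + f + g ≠ 0 →
  n * (f + E) ^ 2 = 2 * Q * (Q - 1) * D ^ 2 * f * (1 + 2 * f) →
  ((1 : ℚ) - D ^ 2 / (1 + f + g) + 4 * D ^ 2 / g + E ^ 2 / f) * n * D =
    Q ^ 2 * (Q + 1) ^ 2 * (D + 1) → False

variable {o : I} {dg tv fs b1 b2 b3 : I → ℤ} {c1 c2 : Λ → I → ℤ} {τ κ : I → I} {Q D n : ℤ}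
  (h : CD o dg tv fs b1 b2 b3 c1 c2 τ κ Q D n)
include h

theorem seven (a7 : A7) {F1 F2 F3 : I} (n1 : F1 ≠ o) (n2 : F2 ≠ o) (n3 : F3 ≠ o)
    (x3 : b1 F3 ≠ 0) (y3 : b2 F3 = b1 F3) (z3 : b3 F3 = 0)
    (x2 : b1 F2 ≠ 0) (z2 : b3 F2 = b1 F2) (y1 : b2 F1 ≠ 0) (z1 : b3 F1 = b2 F1)
    (s3 : ∀ χ, b1 χ ≠ 0 → b2 χ ≠ 0 → χ = o ∨ χ = F3)
    (s2 : ∀ χ, b1 χ ≠ 0 → b3 χ ≠ 0 → χ = o ∨ χ = F2)
    (s1 : ∀ χ, b2 χ ≠ 0 → b3 χ ≠ 0 → χ = o ∨ χ = F1) : False := by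
  obtain ⟨o1, o2, o3, o4, o5, o6⟩ := h.o1
  have u1 : ∀ χ, b1 χ ≠ 0 → _ := fun χ => one4 h.g1.1 o4
  have u2 : ∀ χ, b2 χ ≠ 0 → _ := fun χ => one4 h.g1.2.1 o5
  have d23 : F2 ≠ F3 := fun e => x2 (by rw [← z2, e, z3])
  have d13 : F1 ≠ F3 := fun e => y1 (by rw [← z1, e, z3])
  have y2 : b2 F2 = 0 := by_contra fun c => (s3 F2 x2 c).elim n2 d23
  have x1 : b1 F1 = 0 := by_contra fun c => (s3 F1 c y1).elim n1 d13
  have nd1 : [o, F3, F2].Nodup := by simp [n3.symm, n2.symm, d23.symm]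
  have nd2 : [o, F3, F1].Nodup := by simp [n3.symm, n1.symm, d13.symm]
  obtain ⟨X, hX, bX, sX⟩ := last h.g1.1 u1 nd1 (by simp [o4, u1 _ x3, u1 _ x2])
  obtain ⟨Y, hY, bY, sY⟩ := last h.g1.2.1 u2 nd2 (by simp [o5, y3, u1 _ x3, u2 _ y1])
  have nd1 := List.nodup_cons.2 ⟨hX, nd1⟩
  have nd2 := List.nodup_cons.2 ⟨hY, nd2⟩
  simp only [List.mem_cons, List.not_mem_nil, or_false, not_or] at hX hY
  have X2 : b2 X = 0 := by_contra fun c => (s3 X bX c).elim hX.1 hX.2.1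
  have X3 : b3 X = 0 := by_contra fun c => (s2 X bX c).elim hX.1 hX.2.2
  have Y1 : b1 Y = 0 := by_contra fun c => (s3 Y c bY).elim hY.1 hY.2.1
  have Y3 : b3 Y = 0 := by_contra fun c => (s1 Y bY c).elim hY.1 hY.2.2
  have uX : ∀ χ, b1 χ ≠ 0 → b2 χ = 0 → b3 χ = 0 → χ = X := fun χ a b c => by
    by_contra e
    refine a (sX χ ?_)
    simp only [List.mem_cons, List.not_mem_nil, or_false, not_or]
    refine ⟨e, ?_, ?_, ?_⟩ <;> rintro rfl <;> omega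
  obtain ⟨t1, t2, t3, t4, t5⟩ := h.tb F2
  have tF : τ F2 = F3 := (s3 _ (t1 ▸ x2) (by rwa [t2, z2])).resolve_left fun e => by
    rw [e] at t3; omega
  rw [tF] at t1 t4 t5
  have v2 := (h.val F2 (Or.inl x2)).1
  have v3 := (h.val F3 (Or.inl x3)).1
  have v1 := (h.val F1 (Or.inr (Or.inl y1))).1
  have vX := (h.val X (Or.inl bX)).1
  have vY := (h.val Y (Or.inr (Or.inl bY))).1
  have q2 := u1 _ x2
  have qX := u1 _ bX
  have q1 := u2 _ y1
  have qY := u2 _ bY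
  have w2 : b1 F2 * tv F2 = 1 - D := by rw [v2, y2, z2, h.hQ]; linear_combination (1 - D) * q2
  have w3 : b1 F2 * tv F3 = 1 - D := by
    rw [v3, y3, z3, t1, h.hQ]; linear_combination (1 - D) * q2
  have w1 : b2 F1 * tv F1 = 2 * D := by rw [v1, x1, z1]; linear_combination (2 * D) * q1
  have wX : b1 X * tv X = -Q := by rw [vX, X2, X3]; linear_combination (-Q) * qX
  have wY : b2 Y * tv Y = D := by rw [vY, Y1, Y3]; linear_combination D * qY
  have e1 := sumS (g := fun χ => b1 χ * dg χ) nd1 fun χ c => by rw [sX χ c, zero_mul]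
  have e2 := sumS (g := fun χ => b2 χ * dg χ) nd2 fun χ c => by rw [sY χ c, zero_mul]
  have e3 := sumS (g := fun χ => b1 χ * fs χ) nd1 fun χ c => by rw [sX χ c, zero_mul]
  have e4 := sumS (g := fun χ => (b1 χ : ℚ) * ((tv χ : ℚ) ^ 2 / dg χ)) nd1 fun χ c => by
    simp [sX χ c]
  have e5 := sumS (g := fun χ => (b2 χ : ℚ) * ((tv χ : ℚ) ^ 2 / dg χ)) nd2 fun χ c => by
    simp [sY χ c]
  have pA := h.pA
  have pB := h.pB
  rw [e4] at pA
  rw [e5] at pB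
  rw [h.bd.1] at e1
  rw [h.bd.2.1] at e2
  rw [h.bf] at e3
  simp only [List.map_cons, List.map_nil, List.sum_cons, List.sum_nil, y3, t1, t4, t5, sgq q2,
    sgq qX, sgq q1, sgq qY, w1, w2, w3, wX, wY, o1, o2, o3, o4, o5] at e1 e2 e3 pA pB
  have p2 := h.dpos F2
  have pX := h.dpos X
  have f0 := mul_ne_zero x2 p2.ne'
  have g0 := mul_ne_zero y1 (h.dpos F1).ne'
  have X0 := mul_ne_zero bX pX.ne'
  have Y0 := mul_ne_zero bY (h.dpos Y).ne'
  have fX : ∀ e : κ X = X, fs X = 1 := fun e => h.fo X e (by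
    rcases mul_self_eq_one_iff.1 qX with e | e <;> rw [e] at e1 <;> omega)
  have sg : Q * (b1 F2 * dg F2) < 0 := by
    rcases lt_trichotomy Q 0 with c | c | c
    · obtain ⟨k1, k2, k3, -⟩ := h.tb X
      have := fX (h.kn c ▸ uX _ (k1 ▸ bX) (k2.trans X3) (k3.trans X2))
      have z : fs F2 = 0 := by_contra fun e => d23 (((h.fr F2).2 e).symm.trans (h.kn c ▸ tF))
      rw [this, z] at e3
      rw [show b1 X = -1 by omega] at e1
      exact mul_neg_of_neg_of_pos c (by omega)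
    · have := h.h8; omega
    · obtain ⟨k1, k2, k3⟩ := h.kp c X
      have := fX (uX _ (k1 ▸ bX) (k2.trans X2) (k3.trans X3))
      obtain ⟨k1, k2, k3⟩ := h.kp c F2
      have z := mul_ne_zero x2 ((h.fr F2).1 ((s2 _ (k1 ▸ x2) (by rwa [k3, z2])).resolve_left
        fun e => by rw [e] at k2; omega))
      rw [this] at e3
      rw [(mul_self_eq_one_iff.1 qX).resolve_right (by omega)] at e1
      exact mul_neg_of_pos_of_neg c (by omega)
  have fE : |1 - D| ≤ |b1 F2 * dg F2| := by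
    rw [← w2, abs_mul, abs_mul, abs_of_pos p2]
    exact mul_le_mul_of_nonneg_left (h.le F2) (abs_nonneg _)
  generalize b1 F2 * dg F2 = f at *
  generalize b2 F1 * dg F1 = g at *
  rw [show b1 X * dg X = -(1 + 2 * f) by omega] at X0 pA
  rw [show b2 Y * dg Y = -(1 + f + g) by omega] at Y0 pB
  refine a7 (n := n) h.hQ rfl h.h11 h.h8 sg fE g0 (neg_ne_zero.1 Y0) ?_ ?_
  · have a : (f : ℚ) ≠ 0 := by exact_mod_cast f0
    have b : (1 + 2 * f : ℚ) ≠ 0 := by exact_mod_cast neg_ne_zero.1 X0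
    have := h.hQ
    subst this
    push_cast at pA
    field_simp at pA
    have : ((n * (f + (1 - D)) ^ 2 : ℤ) : ℚ) =
        (2 * (2 * D - 1) * (2 * D - 1 - 1) * D ^ 2 * f * (1 + 2 * f) : ℤ) := by
      push_cast; linear_combination (1 / 2 : ℚ) * pA
    exact_mod_cast this
  · rw [← pB]; push_cast; rw [div_neg]; ring

/-- the third constituent of the second column -/
theorem third {l : Λ} {y y' z : I} (nd : [o, y, y', z].Nodup) (hy : c2 l y ≠ 0) (hy' : c2 l y' ≠ 0)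
    (a : c1 l y = 0) (a' : c1 l y' = 0) (sb : ∀ χ, χ ∉ [o, y, y', z] → b1 χ = 0)
    : c2 l y * dg y * (c2 l y' * tv y') = c2 l y' * dg y' * (c2 l y * tv y) ∧
      ∀ χ, χ ∉ [o, y, y', z] → b2 χ ≠ 0 → c1 l χ + c2 l χ = 0 := by
  have u : ∀ χ, c2 l χ ≠ 0 → _ := fun χ => one3 (h.cn l).2.1
  have nd' : [y, y'].Nodup := by simp at nd ⊢; tauto
  obtain ⟨L, hL, bL, sL⟩ := last (h.cn l).2.1 u nd' (by simp [u _ hy, u _ hy'])
  have nd' := List.nodup_cons.2 ⟨hL, nd'⟩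
  have e0 := sumS (g := fun χ => c1 l χ * c2 l χ) nd' fun χ c => by rw [sL χ c, mul_zero]
  have e1 := sumS (g := fun χ => c2 l χ * dg χ) nd' fun χ c => by rw [sL χ c, zero_mul]
  have e2 := sumS (g := fun χ => c2 l χ * tv χ) nd' fun χ c => by rw [sL χ c, zero_mul]
  have e3 := sumS (g := fun χ => (c2 l χ : ℚ) * ((tv χ : ℚ) ^ 2 / dg χ)) nd' fun χ c => by
    simp [sL χ c]
  rw [(h.cn l).2.2] at e0
  rw [(h.cd l).2] at e1
  rw [(h.ct l).2] at e2
  rw [h.p2 l] at e3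
  simp only [List.map_cons, List.map_nil, List.sum_cons, List.sum_nil, a, a', zero_mul, add_zero,
    sgq (u _ hy), sgq (u _ hy'), sgq (u _ bL)] at e0 e1 e2 e3
  refine ⟨ident (c := c2 l L * dg L) (C := c2 l L * tv L) (mul_ne_zero hy (h.dpos _).ne')
    (mul_ne_zero hy' (h.dpos _).ne') (mul_ne_zero bL (h.dpos _).ne') (by omega) (by omega)
    (by linear_combination -e3), fun χ n m => ?_⟩
  have v := (h.val χ (Or.inr (Or.inl m))).2 l
  rw [sb χ n] at v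
  have : c2 l χ = 0 := by
    by_cases e : χ = L
    · have := (mul_eq_zero.1 e0.symm).resolve_right bL
      rw [e] at v ⊢; omega
    · exact sL χ (by simp at n ⊢; tauto)
  omega

theorem col {p p1 p2 : I} (nd : [o, p, p1, p2].Nodup) (q : b1 p * b1 p = 1)
    (q1 : b1 p1 * b1 p1 = 1) (q2 : b1 p2 * b1 p2 = 1) (w : b1 p * tv p = 1)
    (w1 : b1 p1 * tv p1 = -Q) (w2 : b1 p2 * tv p2 = -Q)
    (sb : ∀ χ, χ ∉ [o, p, p1, p2] → b1 χ = 0) (l : Λ) :
    c1 l p + c2 l p = -b1 p ∧ (∀ χ, χ ∉ [o, p, p1, p2] → b2 χ ≠ 0 → c1 l χ + c2 l χ = 0) ∧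
      (-(b1 p1 * dg p1) = Q * (b1 p * dg p) ∨ -(b1 p2 * dg p2) = Q * (b1 p * dg p)) := by
  obtain ⟨o1, o2, o3, o4, o5, o6⟩ := h.o1
  obtain ⟨k1, k2⟩ := h.co l
  have u1 : ∀ χ, c1 l χ ≠ 0 → _ := fun χ => one3 (h.cn l).1
  have u2 : ∀ χ, c2 l χ ≠ 0 → _ := fun χ => one3 (h.cn l).2.1
  have alt : ∀ χ, b1 χ * b1 χ = 1 → (c1 l χ = b1 χ ∧ c2 l χ = 0) ∨ (c1 l χ = 0 ∧ c2 l χ = -b1 χ) :=
    fun χ e => by
      have v := (h.val χ (Or.inl (left_ne_zero_of_mul_eq_one e))).2 l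
      by_cases a : c1 l χ = 0
      · exact Or.inr ⟨a, by omega⟩
      by_cases b : c2 l χ = 0
      · exact Or.inl ⟨by omega, b⟩
      rcases mul_self_eq_one_iff.1 e with e | e <;> rcases mul_self_eq_one_iff.1 (u1 _ a) with a | a <;>
        rcases mul_self_eq_one_iff.1 (u2 _ b) with b | b <;> omega
  have n := left_ne_zero_of_mul_eq_one q
  have n1 := left_ne_zero_of_mul_eq_one q1
  have n2 := left_ne_zero_of_mul_eq_one q2
  have bd := sumS (g := fun χ => b1 χ * dg χ) nd fun χ c => by rw [sb χ c, zero_mul]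
  rw [h.bd.1] at bd
  have h11 := h.h11
  have h8 := h.h8
  have two : ∀ {y y'}, [o, y, y'].Nodup → b1 y * b1 y = 1 → b1 y' * b1 y' = 1 → c1 l y = b1 y →
      c1 l y' = b1 y' → 1 + (b1 y * tv y + b1 y' * tv y') = 0 := fun nd a a' b b' => by
    have z := done (fun χ => mul_self_nonneg (c1 l χ)) nd (by simp [(h.cn l).1, k1, a, a', b, b'])
    have := sumS (g := fun χ => c1 l χ * tv χ) nd fun χ c => by
      rw [mul_self_eq_zero.1 (z χ c), zero_mul]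
    simpa [(h.ct l).1, k1, o2, b, b'] using this.symm
  have nd1 : [o, p, p1].Nodup := by simp at nd ⊢; tauto
  have nd2 : [o, p, p2].Nodup := by simp at nd ⊢; tauto
  have nd3 : [o, p1, p2].Nodup := by simp at nd ⊢; tauto
  simp only [List.map_cons, List.map_nil, List.sum_cons, List.sum_nil, o1, o4] at bd
  rcases alt p q with ⟨a, b⟩ | ⟨a, b⟩ <;> rcases alt p1 q1 with ⟨a1, b1'⟩ | ⟨a1, b1'⟩ <;>
    rcases alt p2 q2 with ⟨a2, b2'⟩ | ⟨a2, b2'⟩
  · have := two nd1 q q1 a a1; omega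
  · have := two nd1 q q1 a a1; omega
  · have := two nd2 q q2 a a2; omega
  · exfalso
    have t := (third h (z := p) (by simp at nd ⊢; tauto) (b1' ▸ neg_ne_zero.2 n1)
      (b2' ▸ neg_ne_zero.2 n2) a1 a2 fun χ c => sb χ (by simp at c ⊢; tauto)).1
    simp only [b1', b2', neg_mul, w1, w2, neg_neg, neg_inj] at t
    rw [mul_left_inj' (by omega)] at t
    have ndp : [o, p].Nodup := by simp at nd ⊢; tauto
    obtain ⟨M, hM, bM, sM⟩ := last (h.cn l).1 u1 ndp (by simp [k1, a, q])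
    have ndp := List.nodup_cons.2 ⟨hM, ndp⟩
    have e1 := sumS (g := fun χ => c1 l χ * dg χ) ndp fun χ c => by rw [sM χ c, zero_mul]
    have e2 := sumS (g := fun χ => c1 l χ * tv χ) ndp fun χ c => by rw [sM χ c, zero_mul]
    have e3 := sumS (g := fun χ => (c1 l χ : ℚ) * ((tv χ : ℚ) ^ 2 / dg χ)) ndp fun χ c => by
      simp [sM χ c]
    have e4 := sumS (g := fun χ => (b1 χ : ℚ) * ((tv χ : ℚ) ^ 2 / dg χ)) nd fun χ c => by
      simp [sb χ c]
    have p1' := h.p1 l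
    rw [← h.pA, mul_left_inj' (by exact_mod_cast h.n0.ne'), e3, e4] at p1'
    rw [(h.cd l).1] at e1
    rw [(h.ct l).1] at e2
    simp only [List.map_cons, List.map_nil, List.sum_cons, List.sum_nil, a, k1, o1, o2, o4, w, w1,
      w2, sgq q, sgq q1, sgq q2, sgq (u1 _ bM), t] at e1 e2 p1' bd
    have m0 := mul_ne_zero n2 (h.dpos p2).ne'
    rw [show c1 l M * tv M = -2 by omega, show c1 l M * dg M = 2 * (b1 p2 * dg p2) by omega] at p1'
    generalize b1 p2 * dg p2 = y at *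
    have y0 : (y : ℚ) ≠ 0 := by exact_mod_cast m0
    have : ((Q * Q : ℤ) : ℚ) = (1 : ℤ) := by
      push_cast at p1' ⊢
      have : (2 : ℚ) / y = 2 * Q ^ 2 / y := by
        linear_combination p1' - (by field_simp : (-2 : ℚ) ^ 2 / (2 * y) = 2 / y)
      field_simp at this
      linear_combination -this
    rcases mul_self_eq_one_iff.1 (Int.cast_injective this) with e | e <;> rw [e] at h11 <;>
      simp at h11
  · have := two nd3 q1 q2 a1 a2; omega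
  · obtain ⟨t, t'⟩ := third h (z := p1) (by simp at nd ⊢; tauto) (b ▸ neg_ne_zero.2 n)
      (b2' ▸ neg_ne_zero.2 n2) a a2 fun χ c => sb χ (by simp at c ⊢; tauto)
    simp only [b, b2', neg_mul, w, w2] at t
    exact ⟨by omega, fun χ c => t' χ (by simp at c ⊢; tauto), Or.inr (by linear_combination t)⟩
  · obtain ⟨t, t'⟩ := third h nd (b ▸ neg_ne_zero.2 n) (b1' ▸ neg_ne_zero.2 n1) a a1 sb
    simp only [b, b1', neg_mul, w, w1] at t
    exact ⟨by omega, t', Or.inl (by linear_combination t)⟩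
  · exfalso
    have nd4 : [p, p1, p2].Nodup := (List.nodup_cons.1 nd).2
    have z := done (fun χ => mul_self_nonneg (c2 l χ)) nd4
      (by simp [(h.cn l).2.1, b, b1', b2', q, q1, q2])
    have := sumS (g := fun χ => c2 l χ * dg χ) nd4 fun χ c => by
      rw [mul_self_eq_zero.1 (z χ c), zero_mul]
    simp only [(h.cd l).2, List.map_cons, List.map_nil, List.sum_cons, List.sum_nil, b, b1', b2',
      neg_mul] at this
    omega

theorem eight (a8 : A8) {p : I} (po : p ≠ o) (x : b1 p ≠ 0) (y : b2 p = b1 p) (z : b3 p = b1 p)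
    (s3 : ∀ χ, b1 χ ≠ 0 → b2 χ ≠ 0 → χ = o ∨ χ = p)
    (s2 : ∀ χ, b1 χ ≠ 0 → b3 χ ≠ 0 → χ = o ∨ χ = p)
    (s1 : ∀ χ, b2 χ ≠ 0 → b3 χ ≠ 0 → χ = o ∨ χ = p) : False := by
  obtain ⟨o1, o2, o3, o4, o5, o6⟩ := h.o1
  have u1 : ∀ χ, b1 χ ≠ 0 → _ := fun χ => one4 h.g1.1 o4
  have u2 : ∀ χ, b2 χ ≠ 0 → _ := fun χ => one4 h.g1.2.1 o5
  have q := u1 _ x
  have nd : [o, p].Nodup := by simp [po.symm]
  obtain ⟨p1, p2, nd1, x1, x2, sp⟩ := last2 h.g1.1 u1 nd (by simp [o4, q])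
  obtain ⟨r1, r2, nd2, y1, y2, sr⟩ := last2 h.g1.2.1 u2 nd (by simp [o5, y, q])
  have vp : ∀ χ, b1 χ ≠ 0 → χ ∉ [o, p] → b1 χ * tv χ = -Q := fun χ a c => by
    simp only [List.mem_cons, List.not_mem_nil, or_false] at c
    rw [(h.val χ (Or.inl a)).1, of_not_not (mt (s3 χ a) c), of_not_not (mt (s2 χ a) c)]
    linear_combination (-Q) * u1 _ a
  have vr : ∀ χ, b2 χ ≠ 0 → χ ∉ [o, p] → b1 χ = 0 ∧ b2 χ * tv χ = D := fun χ a c => by
    simp only [List.mem_cons, List.not_mem_nil, or_false] at c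
    have e := of_not_not (mt (fun e => s3 χ e a) c)
    refine ⟨e, ?_⟩
    rw [(h.val χ (Or.inr (Or.inl a))).1, e, of_not_not (mt (s1 χ a) c)]
    linear_combination D * u2 _ a
  have w : b1 p * tv p = 1 := by
    rw [(h.val p (Or.inl x)).1, y, z, h.hQ]; linear_combination q
  have w1 := vp p1 x1 (by simp at nd1 ⊢; tauto)
  have w2 := vp p2 x2 (by simp at nd1 ⊢; tauto)
  obtain ⟨t1, v1⟩ := vr r1 y1 (by simp at nd2 ⊢; tauto)
  obtain ⟨-, v2⟩ := vr r2 y2 (by simp at nd2 ⊢; tauto)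
  have C := col h (p := p) (p1 := p1) (p2 := p2) (by simp at nd1 ⊢; tauto) q (u1 _ x1) (u1 _ x2)
    w w1 w2 fun χ c => sp χ (by simp at c ⊢; tauto)
  have dx := h.cong p _ fun l => (C l).1
  have du := h.cong r1 0 fun l => (C l).2.1 r1 (by
    simp only [List.mem_cons, List.not_mem_nil, or_false, not_or]
    refine ⟨?_, ?_, ?_, ?_⟩ <;> rintro rfl <;> omega) y1
  obtain ⟨l⟩ := h.ne
  have c3 := (C l).2.2
  have e1 := sumS (g := fun χ => b1 χ * dg χ) nd1 fun χ c => by rw [sp χ c, zero_mul]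
  have e2 := sumS (g := fun χ => b2 χ * dg χ) nd2 fun χ c => by rw [sr χ c, zero_mul]
  have e4 := sumS (g := fun χ => (b1 χ : ℚ) * ((tv χ : ℚ) ^ 2 / dg χ)) nd1 fun χ c => by
    simp [sp χ c]
  have e5 := sumS (g := fun χ => (b2 χ : ℚ) * ((tv χ : ℚ) ^ 2 / dg χ)) nd2 fun χ c => by
    simp [sr χ c]
  have pA := h.pA
  have pB := h.pB
  rw [e4] at pA
  rw [e5] at pB
  rw [h.bd.1] at e1
  rw [h.bd.2.1] at e2
  simp only [List.map_cons, List.map_nil, List.sum_cons, List.sum_nil, y, sgq q, sgq (u1 _ x1),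
    sgq (u1 _ x2), sgq (u2 _ y1), sgq (u2 _ y2), w, w1, w2, v1, v2, o1, o2, o4, o5] at e1 e2 pA pB
  have hx : b1 p * dg p % 8 = 1 := by
    have := h.m8 p
    rcases mul_self_eq_one_iff.1 q with e | e <;> rw [e] at w ⊢ <;> omega
  have dx' : D ∣ 1 + b1 p * dg p := by
    have := dx.mul_left (b1 p)
    rwa [sub_neg_eq_add, mul_add, q, add_comm] at this
  have du' : D ∣ -(b2 r1 * dg r1) := ((sub_zero (dg r1) ▸ du).mul_left _).neg_right
  have x0 := mul_ne_zero x (h.dpos p).ne'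
  have a1 := mul_ne_zero x1 (h.dpos p1).ne'
  have a2 := mul_ne_zero x2 (h.dpos p2).ne'
  have r0 := neg_ne_zero.2 (mul_ne_zero y1 (h.dpos r1).ne')
  have r0' := neg_ne_zero.2 (mul_ne_zero y2 (h.dpos r2).ne')
  rw [← neg_neg (b2 r1 * dg r1), ← neg_neg (b2 r2 * dg r2)] at pB e2
  generalize -(b2 r1 * dg r1) = u at *
  generalize -(b2 r2 * dg r2) = u' at *
  generalize b1 p * dg p = X at *
  generalize b1 p1 * dg p1 = A1 at *
  generalize b1 p2 * dg p2 = A2 at *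
  have h11 := h.h11
  have Q0 : (Q : ℚ) ≠ 0 := by
    have : Q ≠ 0 := by rintro rfl; simp at h11
    exact_mod_cast this
  have Q1 : (1 - Q : ℚ) ≠ 0 := by
    have : 1 - Q ≠ 0 := fun e => by rw [show Q = 1 by omega] at h11; simp at h11
    exact_mod_cast this
  have Q2 : (Q + 1 : ℚ) ≠ 0 := by
    have : Q + 1 ≠ 0 := fun e => by rw [show Q = -1 by omega] at h11; simp at h11
    exact_mod_cast this
  have X0 : (X : ℚ) ≠ 0 := by exact_mod_cast x0
  have hA : (n * (1 + X) ^ 2 : ℚ) = -Q * (Q + 1) ^ 2 * X * (1 + (1 - Q) * X) := by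
    have k : ∀ {A1 A2 : ℤ}, A2 ≠ 0 → -A1 = Q * X → 0 = A1 + A2 + 1 + X →
        (((-Q : ℤ) : ℚ) ^ 2 / A1 + ((-Q : ℤ) : ℚ) ^ 2 / A2 + 1 + 1 / X) * n =
          Q * (Q - 1) * (Q + 1) ^ 2 →
        (n * (1 + X) ^ 2 : ℚ) = -Q * (Q + 1) ^ 2 * X * (1 + (1 - Q) * X) := by
      intro A1 A2 a2 c e pA
      obtain rfl : A1 = -(Q * X) := by omega
      obtain rfl : A2 = -(1 + (1 - Q) * X) := by linear_combination -e
      have a2' : (1 + (1 - Q) * X : ℚ) ≠ 0 := by exact_mod_cast neg_ne_zero.1 a2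
      push_cast at pA
      generalize hY : (1 + (1 - Q) * X : ℚ) = Y at *
      field_simp at pA
      subst hY
      refine mul_left_cancel₀ Q1 ?_
      linear_combination pA
    rcases c3 with c | c
    · exact k a2 c (by omega) (by rw [← pA]; push_cast; ring)
    · exact k a1 c (by omega) (by rw [← pA]; push_cast; ring)
  refine h.ree (a8 h.hQ h.h8 h11 h.hp h.n0 hx (by omega) dx' du' r0 r0' (by exact_mod_cast hA) ?_)
  have U0 : (u : ℚ) ≠ 0 := by exact_mod_cast r0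
  have U1 : (u' : ℚ) ≠ 0 := by exact_mod_cast r0'
  have hs : (u + u' : ℚ) = 1 + X := by exact_mod_cast (show u + u' = 1 + X by omega)
  have : ((u * u' * (D * Q + (D + Q) * (1 + X)) : ℤ) : ℚ) = (D ^ 3 * X * (1 + (1 - Q) * X) : ℤ) := by
    push_cast at pB ⊢
    field_simp at pB
    refine mul_left_cancel₀ (mul_ne_zero (mul_ne_zero X0 Q0) (pow_ne_zero 2 Q2)) ?_
    linear_combination (-(1 + X)) * pB + (D * (u * u' - D ^ 2 * X)) * hA -
      n * D ^ 3 * X * (1 + X) * hs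
  exact_mod_cast this

theorem fin (a7 : A7) (a8 : A8) : False := by
  obtain ⟨o1, o2, o3, o4, o5, o6⟩ := h.o1
  obtain ⟨e3, F3, n3, x3, y3, s3⟩ := same h.g1.1 h.g1.2.1 h.g2.1 o4 o5 h.bd.1 h.bd.2.1 h.dpos
  obtain ⟨e2, F2, n2, x2, z2, s2⟩ := same h.g1.1 h.g1.2.2 h.g2.2.1 o4 o6 h.bd.1 h.bd.2.2 h.dpos
  obtain ⟨e1, F1, n1, y1, z1, s1⟩ := same h.g1.2.1 h.g1.2.2 h.g2.2.2 o5 o6 h.bd.2.1 h.bd.2.2 h.dpos
  by_cases z3 : b3 F3 = 0
  · exact seven h a7 n1 n2 n3 x3 (e3 _ x3 y3) z3 x2 (e2 _ x2 z2) y1 (e1 _ y1 z1) s3 s2 s1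
  obtain rfl := (s2 _ x3 z3).resolve_left n3
  obtain rfl := (s1 _ y3 z3).resolve_left n3
  exact eight h a8 n3 x3 (e3 _ x3 y3) (e2 _ x3 z3) s3 s2 s1

end JC

theorem CD.false {I Λ : Type*} [Fintype I] {o : I} {dg tv fs b1 b2 b3 : I → ℤ} {c1 c2 : Λ → I → ℤ}
    {τ κ : I → I} {Q D n : ℤ} (h : CD o dg tv fs b1 b2 b3 c1 c2 τ κ Q D n) : False :=
  JC.fin h (fun a b c d e f g h i j => ar7 a b c d e f g h i j)
    fun a b c d e f g h i j k l m => ar8 a b c d e f g h i j k l m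

end LN
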