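import Cfsg.Agent.LN.W1
import Cfsg.Prelude.Def_Classical

/-! A presentation of `U₃(3)` and the identification with the unitary group. -/

set_option autoImplicit false

namespace LN.W

open Subgroup H1.TC Matrix Cfsg

variable {Γ : Type*} [Group Γ] {a d s k e : Γ}

/-- the relations of the amalgam -/
structure Rel (a d s k : Γ) : Prop where
  a4 : a * a * (a * a) = 1
  br : a * d * a = d * a * d
  ds : d * d = s
  ss : s * s = 1
  k3 : k * k * k = 1
  ks : k * s * (k * s) = 1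
  ka : k * a = s * a * s * k
  kb : a * (s * a * s) * (k * (s * a * s)) = k

/-- the extra relation -/
def Cm (a d k e : Γ) : Prop := ∃ r, r * (a * d * k) = a * d * k * e ∧ r * k = k * r

def g5 (a d s : Γ) (y : ℕ) : Γ := [1, a, a⁻¹, d, d⁻¹, s].getD y 1
def g9 (a d s e k : Γ) (y : ℕ) : Γ := [1, a, a⁻¹, d, d⁻¹, s, e, e⁻¹, k, k⁻¹].getD y 1

theorem Rel.si (h : Rel a d s k) : s⁻¹ = s := inv_eq_of_mul_eq_one_right h.ss

theorem sub_fix {S : Subgroup Γ} {x : Γ} : x • ((1 : Γ) : Γ ⧸ S) = ((1 : Γ) : Γ ⧸ S) ↔ x ∈ S := by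
  rw [MulAction.Quotient.smul_coe, smul_eq_mul, mul_one, QuotientGroup.eq, mul_one, inv_mem_iff]

theorem Rel.r2 (h : Rel a d s k) : a * (d * (a * (d⁻¹ * (a⁻¹ * (d⁻¹ * 1))))) = 1 := by
  calc _ = a * d * a * (d * a * d)⁻¹ := by group
    _ = 1 := by rw [h.br, mul_inv_cancel]

theorem Rel.card96 [Finite Γ] (h : Rel a d s k) : Nat.card (closure {a, d}) ≤ 96 := by
  have := TG.card (S := zpowers a) (gen := g5 a d s) (TG.hyp rfl (fun y hy => by
      interval_cases y <;> first | rfl | exact (inv_inv _).symm | exact h.si.symm | exact inv_one.symm)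
    (by
      simp only [TG.rels, List.forall_mem_cons, List.not_mem_nil, false_imp_iff, implies_true,
        and_true]
      exact ⟨by simpa [evL, g5, mul_assoc] using h.a4, h.r2, by
        simpa [evL, g5, ← mul_assoc, h.ds] using h.ss⟩)
    fun y hy e => sub_fix.2 (by
      have : y ≤ 2 := by revert y; decide
      interval_cases y
      exacts [one_mem _, mem_zpowers a, inv_mem (mem_zpowers a)]))
  have o : Nat.card (zpowers a) ≤ 4 := by
    rw [Nat.card_zpowers]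
    exact orderOf_le_of_pow_eq_one (by norm_num) (by rw [← h.a4]; simp [pow_succ, mul_assoc])
  refine (card_le_of_le (closure_mono ?_)).trans (this.trans (by omega))
  rintro _ (rfl | rfl)
  exacts [⟨1, by decide, rfl⟩, ⟨3, by decide, rfl⟩]

theorem Rel.inv9 (h : Rel a d s k) : ∀ y < 32, g9 a d s e k (ivl 291584427033664 y) =
    (g9 a d s e k y)⁻¹ := fun y hy => by
  interval_cases y <;> first | rfl | exact (inv_inv _).symm | exact h.si.symm | exact inv_one.symm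

theorem Rel.sub9 (h : Rel a d s k) {S : Subgroup Γ} (ha : a ∈ S) (hd : d ∈ S) (he : e ∈ S) :
    ∀ y < 32, Nat.land (Nat.shiftRight 255 y) 1 = 1 →
      g9 a d s e k y • ((1 : Γ) : Γ ⧸ S) = ((1 : Γ) : Γ ⧸ S) := fun y hy e => sub_fix.2 (by
  have : y ≤ 7 := by revert y; decide
  interval_cases y
  exacts [one_mem _, ha, inv_mem ha, hd, inv_mem hd, h.ds ▸ mul_mem hd hd, he, inv_mem he])

theorem Rel.rels (h : Rel a d s k) (c : Cm a d k e) {l : List ℕ}
    (hl : evL (g9 a d s e k) l 1 = 1) : ∀ x ∈ [[1,1,1,1], [4,2,4,1,3,1], [5,3,3], [8,8,8],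
      [5,8,5,8], [5,2,5,9,1,8], [5,1,5,1,9,5,1,5,8], l, [7,8,3,1,9,2,4,9,6,8,3,1,8,2,4,9]],
      evL (g9 a d s e k) x 1 = 1 := by
  simp only [List.forall_mem_cons, List.not_mem_nil, false_imp_iff, implies_true, and_true]
  obtain ⟨r, h1, h2⟩ := c
  refine ⟨by simpa [evL, g9, mul_assoc] using h.a4, h.r2, by
    simpa [evL, g9, ← mul_assoc, h.ds] using h.ss, by simpa [evL, g9, mul_assoc] using h.k3,
    by simpa [evL, g9, mul_assoc] using h.ks, ?_, ?_, hl, ?_⟩
  · change k * (a * (k⁻¹ * (s * (a⁻¹ * (s * 1))))) = 1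
    calc _ = k * a * k⁻¹ * (s⁻¹ * a * s⁻¹)⁻¹ := by group
      _ = 1 := by rw [h.ka, h.si]; group
  · change k * (s * (a * (s * (k⁻¹ * (a * (s * (a * (s * 1)))))))) = 1
    calc _ = (a * (s * a * s))⁻¹ * (a * (s * a * s) * (k * (s * a * s))) * k⁻¹ *
        (a * (s * a * s)) := by group
      _ = 1 := by rw [h.kb]; group
  · change k⁻¹ * (d⁻¹ * (a⁻¹ * (k * (a * (d * (k * (e * (k⁻¹ * (d⁻¹ * (a⁻¹ * (k⁻¹ * (a * (d *
      (k * (e⁻¹ * 1))))))))))))))) = 1
    rw [show e = (a * d * k)⁻¹ * r * (a * d * k) by rw [mul_assoc, h1]; group]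
    calc _ = (a * d * k)⁻¹ * (k * r) * (r * k)⁻¹ * (a * d * k) := by group
      _ = 1 := by rw [h2]; group

theorem Rel.cases (h : Rel a d s k) {S : Subgroup Γ} (ha : a ∈ S) (hd : d ∈ S) (hk : k ∉ S)
    {i : ℤ} (c : Cm a d k (a ^ i * (d * a * (a * (s * a * s))) * (a ^ i)⁻¹))
    (y : Commute a (a * (s * a * s))) : Cm a d k (d * a * (a * (s * a * s))) := by
  have hs : s ∈ S := h.ds ▸ mul_mem hd hd
  have he : a ^ i * (d * a * (a * (s * a * s))) * (a ^ i)⁻¹ ∈ S :=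
    mul_mem (mul_mem (zpow_mem ha i) (mul_mem (mul_mem hd ha) (mul_mem ha
      (mul_mem (mul_mem hs ha) hs)))) (inv_mem (zpow_mem ha i))
  have a4 : a ^ (4 : ℤ) = 1 := by
    rw [← h.a4, show (4 : ℤ) = 1 + 1 + (1 + 1) from rfl]; simp only [_root_.zpow_add, _root_.zpow_one]
  have : i % 4 = 0 ∨ i % 4 = 1 ∨ i % 4 = 2 ∨ i % 4 = 3 := by omega
  rw [zpow_eq_zpow_emod i a4] at c he
  rcases this with e | e | e | e <;> rw [e] at c he
  · simpa using c
  · refine absurd (sub_fix.1 (T1.fix (T1.hyp rfl h.inv9 (h.rels c ?_) (h.sub9 ha hd he)))) hk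
    change (a ^ (1 : ℤ) * (d * a * (a * (s * a * s))) * (a ^ (1 : ℤ))⁻¹)⁻¹ *
      (a * (d * (a * (s * (a * (s * 1)))))) = 1
    rw [mul_assoc d, y.eq]; group
  · refine absurd (sub_fix.1 (T2.fix (T2.hyp rfl h.inv9 (h.rels c ?_) (h.sub9 ha hd he)))) hk
    change (a ^ (2 : ℤ) * (d * a * (a * (s * a * s))) * (a ^ (2 : ℤ))⁻¹)⁻¹ *
      (a * (a * (d * (a * (s * (a * (s * (a⁻¹ * 1)))))))) = 1
    rw [mul_assoc d, y.eq]; group
  · refine absurd (sub_fix.1 (T3.fix (T3.hyp rfl h.inv9 (h.rels c ?_)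
      (h.sub9 ha hd he)))) fun m => hk (inv_mem_iff.1 (m : k⁻¹ ∈ S))
    change (a ^ (3 : ℤ) * (d * a * (a * (s * a * s))) * (a ^ (3 : ℤ))⁻¹)⁻¹ *
      (a⁻¹ * (d * (a * (a * (a * (s * (a * (s * 1)))))))) = 1
    rw [show a ^ (3 : ℤ) = a⁻¹ by rw [← mul_one a⁻¹, ← a4]; group, inv_inv, mul_assoc a⁻¹,
      mul_assoc (d * a), ← y.eq]; group

theorem Rel.card [Finite Γ] (h : Rel a d s k) (c : Cm a d k (d * a * (a * (s * a * s)))) :
    Nat.card (closure {a, d, k}) ≤ 6048 := by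
  have ha : a ∈ closure {a, d} := subset_closure (Or.inl rfl)
  have hd : d ∈ closure {a, d} := subset_closure (Or.inr rfl)
  have hs : s ∈ closure {a, d} := h.ds ▸ mul_mem hd hd
  have := T0.card (T0.hyp rfl h.inv9 (h.rels c (by
    change (d * a * (a * (s * a * s)))⁻¹ * (d * (a * (a * (s * (a * (s * 1)))))) = 1
    group)) (h.sub9 ha hd (mul_mem (mul_mem hd ha) (mul_mem ha (mul_mem (mul_mem hs ha) hs)))))
  have := h.card96
  refine (card_le_of_le (closure_mono ?_)).trans (‹_ ≤ 63 * _›.trans (by omega))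
  rintro _ (rfl | rfl | rfl)
  exacts [⟨1, by decide, rfl⟩, ⟨3, by decide, rfl⟩, ⟨8, by decide, rfl⟩]

/-- The field with nine elements. -/
structure F9 where
  val : Fin 9

namespace F9

instance : DecidableEq F9 := fun a b =>
  decidable_of_iff (a.val = b.val) ⟨fun h => by cases a; cases b; simp_all, fun h => h ▸ rfl⟩

def mk' (n : ℕ) : F9 := ⟨⟨n % 16 % 9, Nat.mod_lt _ (by norm_num)⟩⟩

instance : Fintype F9 := ⟨⟨([⟨0⟩, ⟨1⟩, ⟨2⟩, ⟨3⟩, ⟨4⟩, ⟨5⟩, ⟨6⟩, ⟨7⟩, ⟨8⟩] : List F9), by decide⟩,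
  fun ⟨a⟩ => by revert a; decide⟩
instance : Zero F9 := ⟨⟨0⟩⟩
instance : One F9 := ⟨⟨1⟩⟩
instance : Add F9 := ⟨fun a b => mk'
  (0x435102768354021687543210876102768435021687354210876543768435102687354021876543210 >>>
    (4 * (a.val.1 + 9 * b.val.1)))⟩
instance : Neg F9 := ⟨fun a => mk' (0x453786120 >>> (4 * a.val.1))⟩
instance : Mul F9 := ⟨fun a b => mk'
  (0x615237480138624570582471360264318750327165840741852630453786120876543210000000000 >>>
    (4 * (a.val.1 + 9 * b.val.1)))⟩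
instance : Inv F9 := ⟨fun a => mk' (0x783456210 >>> (4 * a.val.1))⟩

instance : Field F9 :=
  Field.ofMinimalAxioms F9 (by decide +kernel) (by decide +kernel) (by decide +kernel)
    (by decide +kernel) (by decide +kernel) (by decide +kernel) (by decide +kernel)
    (by decide +kernel) (by decide +kernel) ⟨0, 1, by decide +kernel⟩

theorem card : Fintype.card F9 = 9 := rfl
theorem cube_add : ∀ x y : F9, (x + y) ^ 3 = x ^ 3 + y ^ 3 := by decide +kernel

end F9

abbrev M3 := Matrix (Fin 3) (Fin 3) F9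
abbrev U := SU 3 F9 3

theorem mem_U {A : M3} (h1 : A.det = 1)
    (h2 : ∀ i j, A 0 i * A 0 j ^ 3 + A 1 i * A 1 j ^ 3 + A 2 i * A 2 j ^ 3 = (1 : M3) i j) :
    (⟨A, h1⟩ : SpecialLinearGroup (Fin 3) F9) ∈ U := fun u v => by
  change hermForm 3 F9 3 (A *ᵥ u) (A *ᵥ v) = _
  simp only [hermForm, mulVec, dotProduct, Fin.sum_univ_three, F9.cube_add, mul_pow]
  have e := fun i => (h2 i i).trans (one_apply_eq i)
  have f := fun i j (n : i ≠ j) => (h2 i j).trans (one_apply_ne n)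
  linear_combination u 0 * v 0 ^ 3 * e 0 + u 0 * v 1 ^ 3 * f 0 1 (by decide) +
    u 0 * v 2 ^ 3 * f 0 2 (by decide) + u 1 * v 0 ^ 3 * f 1 0 (by decide) + u 1 * v 1 ^ 3 * e 1 +
    u 1 * v 2 ^ 3 * f 1 2 (by decide) + u 2 * v 0 ^ 3 * f 2 0 (by decide) +
    u 2 * v 1 ^ 3 * f 2 1 (by decide) + u 2 * v 2 ^ 3 * e 2

def mt (l : List (Fin 9)) : M3 := Matrix.of fun i j => ⟨l.getD (3 * i.1 + j.1) 0⟩

def el (l : List (Fin 9)) (h : (mt l).det = 1 ∧ (Matrix.of fun i j => mt l 0 i * mt l 0 j ^ 3 +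
    mt l 1 i * mt l 1 j ^ 3 + mt l 2 i * mt l 2 j ^ 3) = (1 : M3)) : U :=
  ⟨_, mem_U h.1 fun i j => congrFun (congrFun h.2 i) j⟩

def aM : U :=
  el [2, 0, 0, 0, 6, 0, 0, 0, 6] (by rw [det_fin_three]; constructor <;> decide +kernel)
def dM : U :=
  el [4, 5, 0, 5, 4, 0, 0, 0, 6] (by rw [det_fin_three]; constructor <;> decide +kernel)
def sM : U :=
  el [0, 2, 0, 2, 0, 0, 0, 0, 2] (by rw [det_fin_three]; constructor <;> decide +kernel)
def kM : U :=
  el [0, 0, 1, 1, 0, 0, 0, 1, 0] (by rw [det_fin_three]; constructor <;> decide +kernel)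
def rM : U :=
  el [4, 3, 3, 3, 4, 3, 3, 3, 4] (by rw [det_fin_three]; constructor <;> decide +kernel)

theorem uext {x y : U} (h : x.1.1 = y.1.1) : x = y := Subtype.ext (Subtype.ext h)

theorem relM : Rel aM dM sM kM := by
  constructor <;> exact uext (by decide +kernel)

theorem cmM : Cm aM dM kM (dM * aM * (aM * (sM * aM * sM))) :=
  ⟨rM, uext (by decide +kernel), uext (by decide +kernel)⟩

theorem cardU : Nat.card U ≤ 6048 := by
  letI : MulAction U (Fin 3 → F9) :=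
    { smul := fun g v => g.1.1 *ᵥ v
      one_smul := fun v => one_mulVec v
      mul_smul := fun g h v => (mulVec_mulVec v g.1.1 h.1.1).symm }
  have hh : ∀ (g : U) i j, g.1.1 0 i * g.1.1 0 j ^ 3 + g.1.1 1 i * g.1.1 1 j ^ 3 +
      g.1.1 2 i * g.1.1 2 j ^ 3 = (1 : M3) i j := fun g i j => by
    have := g.2 (Pi.single i 1) (Pi.single j 1)
    change hermForm 3 F9 3 (g.1.1 *ᵥ _) (g.1.1 *ᵥ _) = _ at this
    simp only [hermForm, mulVec_single_one, Fin.sum_univ_three, col_apply] at this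
    rw [this]
    fin_cases i <;> fin_cases j <;> simp
  have c1 : Nat.card (MulAction.orbit U (Pi.single 0 1 : Fin 3 → F9)) ≤ 252 := by
    refine le_trans (Nat.card_le_card_of_injective (β := {x : F9 × F9 × F9 //
      x.1 * x.1 ^ 3 + x.2.1 * x.2.1 ^ 3 + x.2.2 * x.2.2 ^ 3 = 1})
      (fun v => ⟨(v.1 0, v.1 1, v.1 2), ?_⟩) fun v w e => ?_) ?_
    · obtain ⟨_, g, rfl⟩ := v
      change (g.1.1 *ᵥ _) 0 * (g.1.1 *ᵥ _) 0 ^ 3 + (g.1.1 *ᵥ _) 1 * (g.1.1 *ᵥ _) 1 ^ 3 +
        (g.1.1 *ᵥ _) 2 * (g.1.1 *ᵥ _) 2 ^ 3 = 1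
      simpa only [mulVec_single_one, col_apply, Matrix.one_apply_eq] using hh g 0 0
    · simp only [Subtype.mk.injEq, Prod.mk.injEq] at e
      ext i
      fin_cases i
      exacts [e.1, e.2.1, e.2.2]
    · rw [Nat.card_eq_fintype_card, Fintype.card_subtype]
      decide +kernel
  have st : ∀ g : MulAction.stabilizer U (Pi.single 0 1 : Fin 3 → F9), g.1.1.1 0 0 = 1 ∧
      g.1.1.1 1 0 = 0 ∧ g.1.1.1 2 0 = 0 ∧ g.1.1.1 0 1 = 0 ∧ g.1.1.1 0 2 = 0 := fun g => by
    have e : g.1.1.1 *ᵥ Pi.single 0 1 = Pi.single 0 1 := g.2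
    rw [mulVec_single_one] at e
    have e0 : g.1.1.1 0 0 = 1 := by simpa using congrFun e 0
    have e1 : g.1.1.1 1 0 = 0 := by simpa using congrFun e 1
    have e2 : g.1.1.1 2 0 = 0 := by simpa using congrFun e 2
    exact ⟨e0, e1, e2, by simpa [e0, e1, e2] using hh g.1 0 1,
      by simpa [e0, e1, e2] using hh g.1 0 2⟩
  have c2 : Nat.card (MulAction.stabilizer U (Pi.single 0 1 : Fin 3 → F9)) ≤ 24 := by
    refine le_trans (Nat.card_le_card_of_injective (β := {x : F9 × F9 //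
      x.1 * x.1 ^ 3 + x.2 * x.2 ^ 3 = 1})
      (fun g => ⟨(g.1.1.1 1 1, g.1.1.1 2 1), by simpa [(st g).2.2.2.1] using hh g.1 1 1⟩)
      fun g g' e => ?_) ?_
    · simp only [Subtype.mk.injEq, Prod.mk.injEq] at e
      have key : ∀ g : MulAction.stabilizer U (Pi.single 0 1 : Fin 3 → F9),
          g.1.1.1 1 2 = -g.1.1.1 2 1 ^ 3 ∧ g.1.1.1 2 2 = g.1.1.1 1 1 ^ 3 := fun g => by
        obtain ⟨b1, b2, b3, b4, b5⟩ := st g
        have d1 := g.1.1.2
        have d2 := hh g.1 1 1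
        have d3 := hh g.1 2 1
        rw [det_fin_three] at d1
        simp [b1, b2, b3, b4, b5] at d1 d2 d3
        constructor
        · linear_combination g.1.1.1 1 1 * d3 - g.1.1.1 1 2 * d2 - g.1.1.1 2 1 ^ 3 * d1
        · linear_combination g.1.1.1 2 1 * d3 - g.1.1.1 2 2 * d2 + g.1.1.1 1 1 ^ 3 * d1
      obtain ⟨b1, b2, b3, b4, b5⟩ := st g
      obtain ⟨c1, c2, c3, c4, c5⟩ := st g'
      refine Subtype.ext (uext ?_)
      ext i j
      fin_cases i <;> fin_cases j <;>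
        simp [b1, b2, b3, b4, b5, c1, c2, c3, c4, c5, e.1, e.2, key]
    · rw [Nat.card_eq_fintype_card, Fintype.card_subtype]
      decide +kernel
  rw [← Nat.card_congr (MulAction.orbitProdStabilizerEquivGroup U
    (Pi.single 0 1 : Fin 3 → F9)), Nat.card_prod]
  exact (Nat.mul_le_mul c1 c2).trans (by norm_num)

theorem iso {G : Type*} [Group G] [Finite G] [IsSimpleGroup G] (hG : ¬ IsMulCommutative G)
    {a d s k : G} (h : Rel a d s k) (c : Cm a d k (d * a * (a * (s * a * s))))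
    (gen : closure {a, d, k} = ⊤) (big : 3072 ≤ Nat.card G) : Nonempty (G ≃* PSU 3 F9 3) := by
  have : Finite U := Subtype.finite
  have r : Rel (a, aM) (d, dM) (s, sM) (k, kM) :=
    ⟨Prod.ext h.a4 relM.a4, Prod.ext h.br relM.br, Prod.ext h.ds relM.ds, Prod.ext h.ss relM.ss,
      Prod.ext h.k3 relM.k3, Prod.ext h.ks relM.ks, Prod.ext h.ka relM.ka, Prod.ext h.kb relM.kb⟩
  obtain ⟨x, x1, x2⟩ := c
  obtain ⟨y, y1, y2⟩ := cmM
  have cd := r.card ⟨(x, y), Prod.ext x1 y1, Prod.ext x2 y2⟩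
  have mk : (k, kM) ∈ closure {(a, aM), (d, dM), (k, kM)} := subset_closure (by simp)
  have e : (closure {(a, aM), (d, dM), (k, kM)}).map (MonoidHom.fst G U) = ⊤ := by
    rw [MonoidHom.map_closure, ← gen]; simp [Set.image_insert_eq]
  generalize closure {(a, aM), (d, dM), (k, kM)} = D at cd mk e
  let p : D →* G := (MonoidHom.fst G U).comp D.subtype
  have ps : Function.Surjective p := fun g => by
    obtain ⟨x, hx, rfl⟩ := e.ge (mem_top g)
    exact ⟨⟨x, hx⟩, rfl⟩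
  have pi : Function.Injective p := by
    rw [← MonoidHom.ker_eq_bot_iff, ← card_eq_one]
    have := p.ker.card_eq_card_quotient_mul_card_subgroup
    rw [Nat.card_congr (QuotientGroup.quotientKerEquivOfSurjective p ps).toEquiv] at this
    have : 0 < Nat.card p.ker := Nat.card_pos
    nlinarith
  let φ : G →* U := ((MonoidHom.snd G U).comp D.subtype).comp
    (MulEquiv.ofBijective p ⟨pi, ps⟩).symm.toMonoidHom
  have fk : φ k = kM := congrArg (fun x : D => x.1.2)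
    ((MulEquiv.ofBijective p ⟨pi, ps⟩).symm_apply_eq (x := k) (y := ⟨_, mk⟩) |>.2 rfl)
  have fi : Function.Injective φ := by
    rw [← MonoidHom.ker_eq_bot_iff]
    refine φ.normal_ker.eq_bot_or_eq_top.resolve_right fun c => ?_
    have : φ k = 1 := c.ge (mem_top k)
    rw [fk] at this
    exact absurd (congrArg (fun x : U => x.1.1) this) (by decide +kernel)
  have fs : Function.Surjective φ := by
    rw [← MonoidHom.range_eq_top, ← index_eq_one]
    have h1 := φ.range.card_mul_index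
    rw [← Nat.card_congr (MonoidHom.ofInjective fi).toEquiv] at h1
    have := cardU
    have : 0 < φ.range.index := Nat.pos_of_ne_zero index_ne_zero_of_finite
    nlinarith
  have z : center G = ⊥ := (center G).normal_of_characteristic.eq_bot_or_eq_top.resolve_right
    fun c => hG ⟨⟨fun x y => mem_center_iff.1 (c.ge (mem_top y)) x⟩⟩
  let ψ := MulEquiv.ofBijective φ ⟨fi, fs⟩
  have z' : center U = ⊥ := eq_bot_iff.2 fun g hg => by
    obtain ⟨g, rfl⟩ := fs g
    have : g ∈ center G := mem_center_iff.2 fun x => fi (by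
      rw [map_mul, map_mul, mem_center_iff.1 hg])
    rw [z, mem_bot] at this
    rw [this, map_one]; exact one_mem _
  exact ⟨ψ.trans (QuotientGroup.quotientBot.symm.trans
    (QuotientGroup.quotientMulEquivOfEq z'.symm))⟩

end LN.W
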